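import Mathlib
import Cfsg.Agent.Lib.Forms.Normal

/-! LMW, package PF: the Pfaffian bound for spaces of nondegenerate alternating forms
(proof: plans/LMW.md, PF). -/

set_option autoImplicit false

namespace CfsgLib.LMW

open Module

theorem PF.isSquare_det {K ι : Type*} [Field K] [Fintype ι] [DecidableEq ι] {M : Matrix ι ι K}
    (h1 : ∀ i j, M i j + M j i = 0) (h2 : ∀ i, M i i = 0) (h3 : M.det ≠ 0) : IsSquare M.det := by
  let B := Matrix.toBilin' M
  have hA : B.IsAlt := fun x => by
    change Matrix.toBilin' M x x = 0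
    rw [Matrix.toBilin'_apply, ← Finset.sum_product']
    refine Finset.sum_involution (fun p _ => p.swap) (fun p _ => ?_) (fun p _ h e => h ?_)
      (fun _ _ => by simp) (fun _ _ => rfl)
    · simp only [Prod.fst_swap, Prod.snd_swap]
      linear_combination x p.1 * x p.2 * h1 p.1 p.2
    · rw [show p.2 = p.1 from congrArg Prod.fst e, h2, mul_zero, zero_mul]
  obtain ⟨m, b, a1, a2, a3⟩ := CfsgLib.Forms.exists_symplectic_basis B hA
    (LinearMap.BilinForm.nondegenerate_toBilin'_iff_det_ne_zero.2 h3)
  let e := b.indexEquiv (Pi.basisFun K ι)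
  have h4 : LinearMap.BilinForm.toMatrix b B = Matrix.J (Fin m) K := by
    ext (i | i) (j | j)
    · simp [a1, Matrix.J]
    · simp [Matrix.J, ← hA.neg_eq (b (Sum.inr j)) (b (Sum.inl i)), a3, Matrix.one_apply, eq_comm]
    · simp [a3, Matrix.J, Matrix.one_apply]
    · simp [a2, Matrix.J]
  have h5 : (LinearMap.BilinForm.toMatrix (b.reindex e) B).det = 1 := by
    rw [← SymplecticGroup.det_eq_one (SymplecticGroup.J_mem (Fin m) K), ← h4,
      ← Matrix.det_submatrix_equiv_self e.symm]
    congr 1
    ext i j; simp
  have h6 : M = LinearMap.BilinForm.toMatrix (Pi.basisFun K ι) B := by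
    ext i j; simp [B]
  rw [h6, ← LinearMap.BilinForm.toMatrix_mul_basis_toMatrix (b.reindex e) (Pi.basisFun K ι),
    Matrix.det_mul, Matrix.det_mul, Matrix.det_transpose, h5, mul_one]
  exact ⟨_, rfl⟩

open MvPolynomial in
theorem two_mul_finrank_le {F V A : Type*} [Field F] [Finite F] [AddCommGroup V] [Module F V]
    [FiniteDimensional F V] [Nontrivial V] [AddCommGroup A] [Module F A] [FiniteDimensional F A]
    (b : V →ₗ[F] V →ₗ[F] A) (alt : ∀ x, b x x = 0)
    (onto : ∀ x, x ≠ 0 → Function.Surjective (b x)) : 2 * finrank F A ≤ finrank F V := by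
  classical
  by_contra H
  have d0 : 0 < finrank F V := finrank_pos
  let e := finBasis F A
  let v := finBasis F V
  let M : Matrix (Fin (finrank F V)) (Fin (finrank F V)) (MvPolynomial (Fin (finrank F A)) F) :=
    Matrix.of fun j k => ∑ i, C (e.coord i (b (v j) (v k))) * X i
  have sk : ∀ x y, b x y + b y x = 0 := fun x y => by
    have := alt (x + y)
    simp only [map_add, LinearMap.add_apply, alt, zero_add, add_zero] at this
    rw [add_comm, this]
  have m1 : ∀ j k, M j k + M k j = 0 := fun j k => by
    simp only [M, Matrix.of_apply, ← Finset.sum_add_distrib, ← add_mul, ← map_add, sk, map_zero, zero_mul,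
      Finset.sum_const_zero]
  have m2 : ∀ j, M j j = 0 := fun j => by
    simp only [M, Matrix.of_apply, alt, map_zero, zero_mul, Finset.sum_const_zero]
  have dg : M.det.totalDegree ≤ finrank F V := by
    rw [Matrix.det_apply']
    refine totalDegree_finsetSum_le fun σ _ => (totalDegree_mul _ _).trans ?_
    rw [← map_intCast (C : F →+* MvPolynomial (Fin (finrank F A)) F), totalDegree_C, zero_add]
    refine (totalDegree_finsetProd _ _).trans ((Finset.sum_le_card_nsmul _ _ 1 fun j _ => ?_).trans (by simp))
    simp only [M, Matrix.of_apply]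
    refine totalDegree_finsetSum_le fun i _ => (totalDegree_mul _ _).trans ?_
    rw [totalDegree_C, totalDegree_X]
  have ev : ∀ t, eval t M.det = (LinearMap.toMatrix₂ v v (b.compr₂ (∑ i, t i • e.coord i))).det := fun t => by
    rw [RingHom.map_det]
    congr 1
    ext j k
    simp [M, mul_comm]
  have e0 : eval 0 M.det = 0 := by
    rw [ev]
    exact Matrix.det_eq_zero_of_row_eq_zero ⟨0, d0⟩ fun j => by simp
  have e1 : ∀ t, t ≠ 0 → eval t M.det ≠ 0 := fun t ht => by
    rw [ev, ← LinearMap.separatingLeft_iff_det_ne_zero]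
    intro x hx
    by_contra x0
    refine ht (funext fun i => ?_)
    obtain ⟨y, hy⟩ := onto x x0 (e i)
    have := hx y
    simpa [hy, Finsupp.single_apply] using this
  have n0 : 0 < finrank F A := by omega
  have f0 : M.det ≠ 0 := fun h => e1 (Pi.single ⟨0, n0⟩ 1) (by simp) (by rw [h, map_zero])
  let K := FractionRing (MvPolynomial (Fin (finrank F A)) F)
  have inj := IsFractionRing.injective (MvPolynomial (Fin (finrank F A)) F) K
  obtain ⟨s, hs⟩ := PF.isSquare_det (M := (algebraMap _ K).mapMatrix M)
    (fun i j => by simp only [RingHom.mapMatrix_apply, Matrix.map_apply, ← map_add, m1, map_zero])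
    (fun i => by simp only [RingHom.mapMatrix_apply, Matrix.map_apply, m2, map_zero])
    (by rw [← RingHom.map_det]; exact fun h => f0 (inj (h.trans (map_zero _).symm)))
  rw [← RingHom.map_det] at hs
  obtain ⟨g, rfl⟩ := IsIntegrallyClosed.exists_algebraMap_eq_of_isIntegral_pow
    (R := MvPolynomial (Fin (finrank F A)) F) (x := s) two_pos
    (by rw [sq, ← hs]; exact isIntegral_algebraMap)
  have hg : M.det = g * g := inj (by rw [hs, map_mul])
  have g0 : g ≠ 0 := fun h => f0 (by rw [hg, h, mul_zero])
  rw [hg, totalDegree_mul_of_isDomain g0 g0] at dg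
  have := Fintype.ofFinite F
  have hp := char_dvd_card_solutions (ringChar F) (f := g) (by rw [Fintype.card_fin]; omega)
  rw [Fintype.card_eq_one_iff.2 ⟨⟨0, by simpa [hg] using e0⟩, fun t => Subtype.ext (by
    by_contra ht
    exact e1 _ ht (by rw [hg, map_mul, t.2, mul_zero]))⟩] at hp
  exact CharP.ringChar_ne_one (Nat.dvd_one.1 hp)

end CfsgLib.LMW
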