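import Mathlib
import Cfsg.Agent.Lib.LMW.Pf

/-! LMW, package LA: the first three layers of the Lie ring of a Camina group
(proof: plans/LMW.md, LA). -/

set_option autoImplicit false

namespace CfsgLib.LMW

open Module

variable {r : ℕ} [Fact r.Prime] {V A B : Type*} [AddCommGroup V] [Module (ZMod r) V] [Finite V]
  [AddCommGroup A] [Module (ZMod r) A] [Finite A] [AddCommGroup B] [Module (ZMod r) B] [Finite B]

/-- brackets `V × V → A`, `A × V → B` -/
structure Dat (b1 : V →ₗ[ZMod r] V →ₗ[ZMod r] A) (b2 : A →ₗ[ZMod r] V →ₗ[ZMod r] B) : Prop where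
  alt : ∀ x, b1 x x = 0
  jac : ∀ x y z, b2 (b1 x y) z + b2 (b1 y z) x + b2 (b1 z x) y = 0
  onto : ∀ x, x ≠ 0 → Function.Surjective (b1 x)
  gen : ∀ ν : B →ₗ[ZMod r] ZMod r, (∀ a v, ν (b2 a v) = 0) → ν = 0
  c3 : ∀ x, x ≠ 0 → Nat.card (B ⧸ LinearMap.range (b2.flip x)) < Nat.card (LinearMap.ker (b1 x))

/-- the right radical of `ν ∘ b2` -/
def XX (b2 : A →ₗ[ZMod r] V →ₗ[ZMod r] B) (ν : B →ₗ[ZMod r] ZMod r) : Submodule (ZMod r) V :=
  LinearMap.ker (b2.compr₂ ν).flip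

omit [Finite V] [Finite A] [Finite B] in
theorem mem_XX {b2 : A →ₗ[ZMod r] V →ₗ[ZMod r] B} {ν : B →ₗ[ZMod r] ZMod r} {x : V} :
    x ∈ XX b2 ν ↔ ∀ a, ν (b2 a x) = 0 := by
  simp [XX, LinearMap.ext_iff]

namespace Dat

variable {b1 : V →ₗ[ZMod r] V →ₗ[ZMod r] A} {b2 : A →ₗ[ZMod r] V →ₗ[ZMod r] B} (h : Dat b1 b2)
  {ν : B →ₗ[ZMod r] ZMod r}
include h

theorem anti (x y : V) : b1 y x = -b1 x y := by
  have := h.alt (x + y)
  simp only [map_add, LinearMap.add_apply, h.alt, zero_add, add_zero] at this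
  exact eq_neg_of_add_eq_zero_left this

theorem sym {x : V} (hx : x ∈ XX b2 ν) (u v : V) : ν (b2 (b1 x u) v) = ν (b2 (b1 x v) u) := by
  have := congrArg ν (h.jac x u v)
  rw [map_add, map_add, mem_XX.1 hx, h.anti x v, map_neg, LinearMap.neg_apply, map_neg, map_zero,
    add_zero] at this
  exact eq_of_add_neg_eq_zero this

theorem core (hν : ν ≠ 0) : LinearMap.ker (b2.compr₂ ν) = ⊥ ∧
    finrank (ZMod r) V = 2 * finrank (ZMod r) A ∧ finrank (ZMod r) (XX b2 ν) = finrank (ZMod r) A ∧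
    1 ≤ finrank (ZMod r) A ∧ ∀ x ∈ XX b2 ν, x ≠ 0 → LinearMap.ker (b1 x) = XX b2 ν := by
  obtain ⟨p, hp⟩ : ∃ p, p = b2.compr₂ ν := ⟨_, rfl⟩
  have pa : ∀ a v, p a v = ν (b2 a v) := fun a v => by rw [hp]; rfl
  have hX : XX b2 ν = LinearMap.ker p.flip := by rw [hp]; rfl
  have p0 : p ≠ 0 := fun e => hν (h.gen ν fun a v => by rw [← pa, e]; rfl)
  have r1 : finrank (ZMod r) (LinearMap.range p.flip) = finrank (ZMod r) (LinearMap.range p) := by
    rw [← LinearMap.finrank_range_dualMap_eq_finrank_range p,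
      show p.flip = p.dualMap ∘ₗ (evalEquiv (ZMod r) V).toLinearMap from rfl,
      LinearMap.range_comp_of_range_eq_top _ (LinearEquiv.range _)]
  have r2 := p.finrank_range_add_finrank_ker
  have r3 := p.flip.finrank_range_add_finrank_ker
  have r4 : finrank (ZMod r) (LinearMap.range p) ≠ 0 := fun e =>
    p0 (LinearMap.range_eq_bot.1 (Submodule.finrank_eq_zero.1 e))
  rw [r1, ← hX] at r3
  have : Nontrivial V := Module.nontrivial_of_finrank_pos (R := ZMod r) (by omega)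
  have r5 := two_mul_finrank_le b1 h.alt h.onto
  have k : ∀ x ∈ XX b2 ν, x ≠ 0 → LinearMap.ker (p ∘ₗ b1 x) = XX b2 ν := fun x hx x0 => by
    have r6 := (p ∘ₗ b1 x).finrank_range_add_finrank_ker
    rw [LinearMap.range_comp_of_range_eq_top _ (LinearMap.range_eq_top.2 (h.onto x x0))] at r6
    refine (Submodule.eq_of_le_of_finrank_eq (fun u hu => LinearMap.ext fun v => ?_) (by omega)).symm
    rw [LinearMap.comp_apply, pa, h.sym hx]
    exact mem_XX.1 hu _
  obtain ⟨u, hu⟩ : ∃ u, u ∉ XX b2 ν := by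
    by_contra! e
    rw [Submodule.eq_top_iff'.2 e, finrank_top] at r3
    omega
  have r7 : finrank (ZMod r) (XX b2 ν) ≤ finrank (ZMod r) (LinearMap.range p) := by
    have i : Function.Injective (p ∘ₗ b1.flip u ∘ₗ (XX b2 ν).subtype) :=
      (injective_iff_map_eq_zero _).2 fun x e => by
        by_contra x0
        exact hu ((k x.1 x.2 fun e => x0 (Subtype.ext e)).le e)
    rw [← LinearMap.finrank_range_of_inj i]
    exact Submodule.finrank_mono (LinearMap.range_comp_le_range _ _)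
  have y : LinearMap.ker p = ⊥ := Submodule.finrank_eq_zero.1 (by omega)
  refine ⟨hp ▸ y, by omega, by omega, by omega, fun x hx x0 => ?_⟩
  rw [← k x hx x0, LinearMap.ker_comp_of_ker_eq_bot _ y]

theorem rad (hν : ν ≠ 0) {a : A} (ha : ∀ v, ν (b2 a v) = 0) : a = 0 := (h.core hν).1.le (LinearMap.ext ha)

theorem onto2 {a : A} (ha : a ≠ 0) : Function.Surjective (b2 a) := by
  rw [← LinearMap.range_eq_top]
  by_contra k
  obtain ⟨ν, hν, e⟩ := (LinearMap.range (b2 a)).exists_le_ker_of_lt_top (lt_top_iff_ne_top.2 k)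
  exact ha (h.rad hν fun v => e ⟨v, rfl⟩)

theorem finrank_V (hν : ν ≠ 0) : finrank (ZMod r) V = 2 * finrank (ZMod r) A := (h.core hν).2.1

theorem finrank_XX (hν : ν ≠ 0) : finrank (ZMod r) (XX b2 ν) = finrank (ZMod r) A := (h.core hν).2.2.1

theorem iso (hν : ν ≠ 0) {x y : V} (hx : x ∈ XX b2 ν) (hy : y ∈ XX b2 ν) : b1 x y = 0 := by
  by_cases x0 : x = 0
  · rw [x0, LinearMap.map_zero₂]
  · exact ((h.core hν).2.2.2.2 x hx x0).ge hy

theorem ker_eq (hν : ν ≠ 0) {x : V} (hx : x ∈ XX b2 ν) (x0 : x ≠ 0) :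
    LinearMap.ker (b1 x) = XX b2 ν := (h.core hν).2.2.2.2 x hx x0

theorem two_le (hν : ν ≠ 0) : 2 ≤ finrank (ZMod r) A := by
  have e1 := h.finrank_XX hν
  have e2 := (h.core hν).2.2.2.1
  have : Nontrivial (XX b2 ν) := Module.nontrivial_of_finrank_pos (R := ZMod r) (by omega)
  obtain ⟨⟨x, hx⟩, x0⟩ := exists_ne (0 : XX b2 ν)
  have x0' : x ≠ 0 := fun e => x0 (Subtype.ext e)
  have c := h.c3 x x0'
  have : Nontrivial (B ⧸ LinearMap.range (b2.flip x)) := Submodule.Quotient.nontrivial_iff.2 fun e =>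
    hν (LinearMap.ext fun y => by
      obtain ⟨a, rfl⟩ := e.ge (Submodule.mem_top (x := y))
      exact mem_XX.1 hx a)
  have e3 : 0 < finrank (ZMod r) (B ⧸ LinearMap.range (b2.flip x)) := finrank_pos
  rw [h.ker_eq hν hx x0', Module.natCard_eq_pow_finrank (K := ZMod r),
    Module.natCard_eq_pow_finrank (K := ZMod r) (V := XX b2 ν), Nat.card_zmod, e1,
    Nat.pow_lt_pow_iff_right (Fact.out : r.Prime).one_lt] at c
  omega

end Dat

end CfsgLib.LMW
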