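import Mathlib

/-! LMW, package SEMI: an alternating form on a finite commutative semifield that is a difference of
two symmetric functionals vanishes (proof: plans/LMW.md, SEMI). -/

set_option autoImplicit false

namespace CfsgLib.LMW

theorem Semi.der {r : ℕ} [Fact r.Prime] {S : Type*} [AddCommGroup S] [Module (ZMod r) S] [Finite S]
    [Nontrivial S] (m : S →ₗ[ZMod r] S →ₗ[ZMod r] S) (comm : ∀ x y, m x y = m y x) {e : S}
    (he : ∀ x, m e x = x) (nz : ∀ x y, m x y = 0 → x = 0 ∨ y = 0) (D : S →ₗ[ZMod r] S)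
    (hD : ∀ z w, D (m z w) = m (D w) z + m (D z) w) {b : S}
    (hb : ∀ x y, m b (m x y) = m (m b x) y) : D b = 0 := by
  let R : Subring (Module.End (ZMod r) S) :=
    { carrier := {φ | ∀ x y, φ (m x y) = m (φ x) y}
      mul_mem' := fun {φ ψ} h1 h2 x y => by rw [Module.End.mul_apply, h2, h1]; rfl
      one_mem' := fun _ _ => rfl
      add_mem' := fun {φ ψ} h1 h2 x y => by
        rw [LinearMap.add_apply, h1, h2, LinearMap.add_apply, map_add, LinearMap.add_apply]
      zero_mem' := fun x y => by simp
      neg_mem' := fun {φ} h1 x y => by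
        rw [LinearMap.neg_apply, h1, LinearMap.neg_apply, map_neg, LinearMap.neg_apply] }
  have ev : ∀ (φ : R) y, φ.1 y = m (φ.1 e) y := fun φ y => by rw [← φ.2, he]
  have z : ∀ φ : R, φ.1 e = 0 → φ = 0 := fun φ k => Subtype.ext (LinearMap.ext fun y => by
    rw [ev, k, LinearMap.map_zero₂]; rfl)
  have : Finite (Module.End (ZMod r) S) := Finite.of_injective _ DFunLike.coe_injective
  have : NoZeroDivisors R := ⟨fun {φ ψ} k => by
    have : φ.1 (ψ.1 e) = 0 := LinearMap.congr_fun (congrArg Subtype.val k) e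
    rw [ev] at this
    exact (nz _ _ this).imp (z φ) (z ψ)⟩
  have : IsDomain R := NoZeroDivisors.to_isDomain R
  let φ : R := ⟨m b, hb⟩
  have pw : ∀ k : ℕ, D ((φ ^ (k + 1)).1 e) = (k + 1) • (φ ^ k).1 (D b) := fun k => by
    induction k with
    | zero => rw [zero_add, pow_one, pow_zero, one_smul]; exact congrArg D ((comm b e).trans (he b))
    | succ k ih =>
      have e1 : (φ ^ (k + 1 + 1)).1 e = m b ((φ ^ (k + 1)).1 e) := by rw [pow_succ' φ (k + 1)]; rfl
      have e2 : (φ ^ (k + 1)).1 (D b) = m b ((φ ^ k).1 (D b)) := by rw [pow_succ' φ k]; rfl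
      rw [e1, hD, ih, comm _ b, map_nsmul, ← e2, comm (D b), ← ev, succ_nsmul _ (k + 1)]
  let _ := (Finite.isDomain_to_isField R).toField
  have := Fintype.ofFinite R
  obtain ⟨k, hk⟩ : ∃ k, Fintype.card R = k + 1 := ⟨_, (Nat.succ_pred_eq_of_pos Fintype.card_pos).symm⟩
  have e1 : φ ^ (k + 1) = φ := hk ▸ FiniteField.pow_card φ
  have e2 : ((k + 1 : ℕ) : R) = 0 := hk ▸ FiniteField.cast_card_eq_zero R
  have e3 := pw k
  rw [e1, ← Module.End.natCast_apply (R := ZMod r), ← map_natCast R.subtype, e2, map_zero] at e3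
  exact (congrArg D ((comm b e).trans (he b))).symm.trans e3

theorem semi {r : ℕ} [Fact r.Prime] {S : Type*} [AddCommGroup S] [Module (ZMod r) S] [Finite S]
    (m : S →ₗ[ZMod r] S →ₗ[ZMod r] S) (comm : ∀ x y, m x y = m y x) {e : S} (he : ∀ x, m e x = x)
    (nz : ∀ x y, m x y = 0 → x = 0 ∨ y = 0) (l : S →ₗ[ZMod r] ZMod r) (l0 : l ≠ 0)
    (hl : ∀ x y z, l (m (m x y) z) = l (m (m z y) x))
    (π π' ω : S →ₗ[ZMod r] S →ₗ[ZMod r] ZMod r)
    (hπ : ∀ w x y z, π w (m (m x y) z) = π w (m (m z y) x))
    (hπ' : ∀ w x y z, π' w (m (m x y) z) = π' w (m (m z y) x))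
    (alt : ∀ a, ω a a = 0) (h : ∀ a z w, ω a (m z w) = π w (m a z) - π' z (m a w)) : ω = 0 := by
  have nt : Nontrivial S := by
    by_contra k
    rw [not_nontrivial_iff_subsingleton] at k
    exact l0 (LinearMap.ext fun x => by rw [Subsingleton.elim x 0, map_zero, map_zero])
  have he' : ∀ x, m x e = x := fun x => (comm x e).trans (he x)
  have inj : Function.Injective (m.compr₂ l) := by
    rw [injective_iff_map_eq_zero]
    intro u hu
    by_contra u0
    have s : Function.Surjective (m u) := Finite.injective_iff_surjective.1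
      ((injective_iff_map_eq_zero _).2 fun y k => (nz _ _ k).resolve_left u0)
    refine l0 (LinearMap.ext fun x => ?_)
    obtain ⟨y, rfl⟩ := s x
    exact LinearMap.congr_fun hu y
  have ext : ∀ u v, (∀ a, l (m u a) = l (m v a)) → u = v := fun u v k => inj (LinearMap.ext k)
  let Φ := LinearEquiv.ofBijective (m.compr₂ l) ⟨inj,
    (LinearMap.injective_iff_surjective_of_finrank_eq_finrank Subspace.dual_finrank_eq.symm).1 inj⟩
  have rep : ∀ ψ : S →ₗ[ZMod r] S →ₗ[ZMod r] ZMod r, ∃ n : S →ₗ[ZMod r] S, ∀ w a, ψ w a = l (m (n w) a) :=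
    fun ψ => ⟨Φ.symm.toLinearMap ∘ₗ ψ, fun w a => (LinearMap.congr_fun (Φ.apply_symm_apply (ψ w)) a).symm⟩
  have nuc : ∀ n, (∀ x y z, l (m n (m (m x y) z)) = l (m n (m (m z y) x))) →
      ∀ x y, m n (m x y) = m (m n x) y := fun n k x y => ext _ _ fun z => by
    rw [hl, comm _ n, comm z, k, comm n, hl, comm (m n x), hl]
  obtain ⟨n, hn⟩ := rep π
  obtain ⟨n', hn'⟩ := rep π'
  obtain ⟨g, hg⟩ := rep ω.flip
  have N : ∀ w x y, m (n w) (m x y) = m (m (n w) x) y := fun w => nuc _ fun x y z => by
    rw [← hn, ← hn, hπ]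
  have N' : ∀ w x y, m (n' w) (m x y) = m (m (n' w) x) y := fun w => nuc _ fun x y z => by
    rw [← hn', ← hn', hπ']
  have gm : ∀ z w, g (m z w) = m (n w) z - m (n' z) w := fun z w => ext _ _ fun a => by
    rw [← hg, LinearMap.flip_apply, h, hn, hn', comm a, comm a, N, N', map_sub, LinearMap.sub_apply, map_sub]
  have g1 : ∀ z, g z = m (n e) z - n' z := fun z => by rw [← he' (n' z), ← gm, he']
  have g2 : ∀ w, g w = n w - m (n' e) w := fun w => by rw [← he' (n w), ← gm, he]
  obtain ⟨D, hD⟩ : ∃ D : S →ₗ[ZMod r] S, ∀ w, D w = n w - m (n e) w := ⟨n - m (n e), fun _ => rfl⟩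
  have gD : ∀ w, g w = D w + m (n e - n' e) w := fun w => by
    rw [g2, hD, map_sub, LinearMap.sub_apply]; abel
  have hD' : ∀ w, D w = m (n' e) w - n' w := fun w => by
    have := (gD w).symm.trans (g1 w)
    rw [map_sub, LinearMap.sub_apply] at this
    rw [eq_sub_of_add_eq this]; abel
  have der : ∀ z w, D (m z w) = m (D w) z + m (D z) w := fun z w => by
    rw [eq_sub_of_add_eq (gD _).symm, gm, hD w, hD' z]
    simp only [map_sub, LinearMap.sub_apply]
    rw [← N, ← N', comm w z]
    abel
  have sq : ∀ x, m x x = 0 → x = 0 := fun x k => (nz x x k).elim id id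
  have main : (∀ u, D u = 0) ∧ ((∀ u a : S, l (m (n e - n' e) (m u a)) + l (m (n e - n' e) (m u a)) = 0) →
      (∀ a, l (m (n e - n' e) (m a a)) = 0) → ∀ u a : S, l (m (n e - n' e) (m u a)) = 0) := by
    by_cases r2 : (2 : ZMod r) = 0
    · have t : ∀ x : S, x + x = 0 := fun x => by rw [← two_smul (ZMod r), r2, zero_smul]
      have s : Function.Surjective fun x => m x x := Finite.injective_iff_surjective.1 fun x y k => by
        have k' : m x x = m y y := k
        have e1 : x + y = 0 := sq _ (by
          simp only [map_add, LinearMap.add_apply]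
          rw [k', comm y x, add_comm (m x y), t])
        rw [← add_zero x, ← t y, ← add_assoc, e1, zero_add]
      refine ⟨fun u => ?_, fun _ k u a => ?_⟩
      · obtain ⟨x, rfl⟩ := s u
        exact (der x x).trans (t _)
      · obtain ⟨x, hx⟩ := s (m u a)
        exact hx ▸ k x
    · have t : ∀ x : S, x + x = 0 → x = 0 := fun x k => by
        rw [← two_smul (ZMod r)] at k
        exact (smul_eq_zero.1 k).resolve_left r2
      refine ⟨fun z => ?_, fun k _ u a => ?_⟩
      · have D0 : ∀ w, D (n w) = 0 := fun w => Semi.der m comm he nz D der (N w)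
        have nn : ∀ w, n (n w) = m (n e) (n w) := fun w => sub_eq_zero.1 ((hD _).symm.trans (D0 w))
        have nl : ∀ w x, n (m (n w) x) = m (n w) (n x) := fun w x => by
          have := der (n w) x
          rw [D0, LinearMap.map_zero₂, add_zero, hD, comm (D x), hD, map_sub, N e (n w), N w (n e),
            comm (n e) (n w)] at this
          exact sub_left_injective this
        have Q : ∀ x, n (m x x) = m (n x) x + m (n x) x - m (n e) (m x x) := fun x => by
          have := der x x
          rw [hD, hD, map_sub, LinearMap.sub_apply, ← N] at this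
          rw [eq_add_of_sub_eq this]; abel
        by_cases a0 : n e = 0
        · have := congrArg n (Q z)
          rw [nn, map_sub, map_add, nl, nl, a0, LinearMap.map_zero₂, sub_zero] at this
          rw [hD, sq _ (t _ this.symm), a0, LinearMap.map_zero₂, sub_zero]
        · have e1 : n (D z) = 0 := by rw [hD, map_sub, nn, nl, sub_self]
          have e2 := Q (D z)
          rw [e1, LinearMap.map_zero₂, add_zero, zero_sub] at e2
          have e3 := congrArg n e2
          rw [nn, map_neg, nl, eq_neg_iff_add_eq_zero] at e3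
          rw [(nz _ _ (t _ e3)).resolve_left a0, eq_comm, neg_eq_zero] at e2
          exact sq _ ((nz _ _ e2).resolve_left a0)
      · have := k u a
        rw [← two_mul] at this
        exact (mul_eq_zero.1 this).resolve_left r2
  have om : ∀ a u, ω a u = l (m (n e - n' e) (m u a)) := fun a u => by
    have := hg u a
    rw [LinearMap.flip_apply, gD, main.1, zero_add] at this
    rw [this]
    simp only [map_sub, LinearMap.sub_apply]
    rw [N, N']
  have alt' : ∀ a, l (m (n e - n' e) (m a a)) = 0 := fun a => (om a a).symm.trans (alt a)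
  ext a u
  rw [om]
  refine main.2 (fun u a => ?_) alt' u a
  have := alt' (u + a)
  simp only [map_add, LinearMap.add_apply] at this
  rwa [alt', alt', comm a u, zero_add, add_zero] at this

end CfsgLib.LMW
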