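import Mathlib
import Cfsg.Agent.Lib.LMW.LA
import Cfsg.Agent.Lib.LMW.Semi

/-! LMW, package LA4: the fourth layer vanishes (proof: plans/LMW.md, LA4). -/

set_option autoImplicit false
set_option linter.unusedSectionVars false

namespace CfsgLib.LMW

open Module

variable {r : ℕ} [Fact r.Prime] {V A B : Type*} [AddCommGroup V] [Module (ZMod r) V] [Finite V]
  [AddCommGroup A] [Module (ZMod r) A] [Finite A] [AddCommGroup B] [Module (ZMod r) B] [Finite B]
  {b1 : V →ₗ[ZMod r] V →ₗ[ZMod r] A} {b2 : A →ₗ[ZMod r] V →ₗ[ZMod r] B}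

namespace LA4

variable (h : Dat b1 b2) {ν ν' : B →ₗ[ZMod r] ZMod r} {β : B →ₗ[ZMod r] V →ₗ[ZMod r] ZMod r}
  {ω : A →ₗ[ZMod r] A →ₗ[ZMod r] ZMod r}
include h

theorem skew (x y : V) : b1 x y = -b1 y x := by
  have := h.alt (x + y)
  simp only [map_add, LinearMap.add_apply, h.alt, zero_add, add_zero] at this
  exact eq_neg_of_add_eq_zero_right this

theorem rk_ker (hν : ν ≠ 0) {x : V} (x0 : x ≠ 0) :
    finrank (ZMod r) (LinearMap.ker (b1 x)) = finrank (ZMod r) A := by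
  have h1 := LinearMap.finrank_range_add_finrank_ker (b1 x)
  rw [LinearMap.range_eq_top.2 (h.onto x x0), finrank_top, h.finrank_V hν] at h1
  omega

theorem c3d (hν : ν ≠ 0) {x : V} (x0 : x ≠ 0) : finrank (ZMod r) B <
    finrank (ZMod r) A + finrank (ZMod r) (LinearMap.range (b2.flip x)) := by
  have h1 := h.c3 x x0
  rw [Module.natCard_eq_pow_finrank (K := ZMod r), Module.natCard_eq_pow_finrank (K := ZMod r)
    (V := LinearMap.ker (b1 x)), Nat.card_zmod, rk_ker h hν x0,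
    Nat.pow_lt_pow_iff_right (Fact.out : r.Prime).one_lt] at h1
  have h2 := Submodule.finrank_quotient_add_finrank (LinearMap.range (b2.flip x))
  omega

theorem exists_X (hν : ν ≠ 0) : ∃ x ∈ XX b2 ν, x ≠ 0 :=
  Submodule.exists_mem_ne_zero_of_ne_bot fun e => by
    have h1 := h.finrank_XX hν
    have h2 := h.two_le hν
    rw [e, finrank_bot] at h1
    omega

theorem exists_w (hν : ν ≠ 0) (β : B →ₗ[ZMod r] V →ₗ[ZMod r] ZMod r) :
    ∃ w, w ≠ 0 ∧ ∀ y, β y w = 0 := by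
  by_contra H
  push Not at H
  have h1 : Function.Injective β.flip := (injective_iff_map_eq_zero _).2 fun w hw => by
    by_contra w0
    obtain ⟨y, hy⟩ := H w w0
    exact hy (LinearMap.congr_fun hw y)
  have h2 := LinearMap.finrank_le_finrank_of_injective h1
  obtain ⟨x, -, x0⟩ := exists_X h hν
  have h3 := c3d h hν x0
  have h4 := LinearMap.finrank_range_le (b2.flip x)
  rw [show finrank (ZMod r) (B →ₗ[ZMod r] ZMod r) = finrank (ZMod r) B from
    Subspace.dual_finrank_eq, h.finrank_V hν] at h2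
  omega

theorem zero (hν : ν ≠ 0) (j4 : ∀ a u v, β (b2 a u) v = β (b2 a v) u) : β = 0 := by
  by_contra β0
  obtain ⟨w, w0, hw⟩ := exists_w h hν β
  have k : ∀ u ∈ LinearMap.ker β.flip, ∀ a v, β (b2 a u) v = 0 := fun u hu a v => by
    rw [j4]; exact LinearMap.congr_fun hu _
  have hw' : w ∈ LinearMap.ker β.flip := LinearMap.ext hw
  have h1 : LinearMap.range β.flip ≤ (LinearMap.range (b2.flip w)).dualAnnihilator := by
    rintro _ ⟨v, rfl⟩
    rw [Submodule.mem_dualAnnihilator]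
    rintro _ ⟨a, rfl⟩
    exact k w hw' a v
  have h2 := (Nat.add_le_add_left (Submodule.finrank_mono h1) _).trans_eq
    (Subspace.finrank_add_finrank_dualAnnihilator_eq (LinearMap.range (b2.flip w)))
  have h4 := c3d h hν w0
  have h5 := LinearMap.finrank_range_add_finrank_ker β.flip
  have h6 : LinearMap.ker β.flip ≤ LinearMap.ker (b1 w) := fun u hu => by
    by_contra e
    refine β0 (LinearMap.ext fun y => LinearMap.ext fun v' => ?_)
    obtain ⟨v, rfl⟩ := h.onto2 e y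
    have := congrArg (fun y => β y v') (h.jac w u v)
    simpa [k w hw', k u hu] using this
  have h7 := Submodule.finrank_mono h6
  rw [rk_ker h hν w0] at h7
  rw [h.finrank_V hν] at h5
  omega

theorem one (hν : ν ≠ 0) (H : ∀ ν' : B →ₗ[ZMod r] ZMod r, ν' ≠ 0 → XX b2 ν' = XX b2 ν)
    (j4 : ∀ a u v, ω a (b1 u v) = β (b2 a u) v - β (b2 a v) u) : ω = 0 := by
  by_contra ω0
  have k : ∀ x ∈ XX b2 ν, ∀ a, b2 a x = 0 := fun x hx a =>
    (Module.forall_dual_apply_eq_zero_iff (ZMod r) _).1 fun ν' => by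
      by_cases e : ν' = 0
      · simp [e]
      · exact mem_XX.1 ((H ν' e).ge hx) a
  obtain ⟨x, hx, x0⟩ := exists_X h hν
  have h1 := c3d h hν x0
  rw [show b2.flip x = 0 from LinearMap.ext (k x hx), LinearMap.range_zero, finrank_bot] at h1
  have h2 : ∀ u v, b2 (b1 x u) v = b2 (b1 x v) u := fun u v => by
    have := h.jac x u v
    rw [k x hx, skew h v x, map_neg, LinearMap.neg_apply] at this
    linear_combination (norm := module) this
  have h3 : ∀ a, ω a = 0 → a = 0 := fun a ha => by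
    by_contra a0
    obtain ⟨u, rfl⟩ := h.onto x x0 a
    have u1 : u ∉ XX b2 ν := fun e => a0 (h.iso hν hx e)
    have h4 : Function.Surjective (b1.flip u ∘ₗ (XX b2 ν).subtype) :=
      (LinearMap.injective_iff_surjective_of_finrank_eq_finrank (h.finrank_XX hν)).1
        ((injective_iff_map_eq_zero _).2 fun y hy => by
          by_contra y0
          exact u1 ((h.ker_eq hν y.2 fun e => y0 (Subtype.ext e)).le hy))
    refine ω0 (LinearMap.ext fun a => LinearMap.ext fun a' => ?_)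
    obtain ⟨v, rfl⟩ := h.onto x x0 a
    obtain ⟨y, rfl⟩ := h4 a'
    have h5 := j4 (b1 x u) y v
    have h6 := j4 (b1 x v) y u
    rw [k y y.2, ha, h2] at h5
    rw [k y y.2] at h6
    simp only [map_zero, LinearMap.zero_apply] at h5 h6
    exact h6.trans h5.symm
  obtain ⟨w, w0, hw⟩ := exists_w h hν β
  have h7 : Function.Injective (b2.flip w) := (injective_iff_map_eq_zero _).2 fun a ha =>
    h3 a (LinearMap.ext fun a' => by
      obtain ⟨v, rfl⟩ := h.onto w w0 a'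
      rw [j4, hw, show b2 a w = 0 from ha]
      simp)
  have h8 := LinearMap.finrank_le_finrank_of_injective h7
  omega

theorem disj (hν : ν ≠ 0) (hν' : ν' ≠ 0) (H : XX b2 ν ≠ XX b2 ν') {x : V} (hx : x ∈ XX b2 ν)
    (hx' : x ∈ XX b2 ν') : x = 0 := by
  by_contra x0
  exact H ((h.ker_eq hν hx x0).symm.trans (h.ker_eq hν' hx' x0))

theorem exists_phi (hν : ν ≠ 0) (hν' : ν' ≠ 0) (H : XX b2 ν ≠ XX b2 ν') :
    ∃ φ : XX b2 ν →ₗ[ZMod r] V, (∀ x, φ x ∈ XX b2 ν') ∧ (∀ x, φ x = 0 → x = 0) ∧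
      ∀ x y : XX b2 ν, b1 x (φ y) = b1 y (φ x) := by
  have k : ∀ {ν ν' : B →ₗ[ZMod r] ZMod r}, ν ≠ 0 → ν' ≠ 0 → XX b2 ν ≠ XX b2 ν' →
      XX b2 ν ≠ XX b2 (ν + ν') := fun {ν ν'} hν hν' H e => by
    obtain ⟨x, hx, x0⟩ := exists_X h hν
    refine x0 (disj h hν hν' H hx (mem_XX.2 fun a => ?_))
    simpa [mem_XX.1 hx a] using mem_XX.1 (e.le hx) a
  have h1 : ν + ν' ≠ 0 := fun e => by
    obtain ⟨x, hx, x0⟩ := exists_X h hν
    refine x0 (disj h hν hν' H hx (mem_XX.2 fun a => ?_))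
    simpa [mem_XX.1 hx a] using LinearMap.congr_fun e (b2 a x)
  have h2 := k hν hν' H
  have h3 := k hν' hν H.symm
  rw [add_comm] at h3
  have hc : IsCompl (XX b2 ν') (XX b2 (ν + ν')) :=
    (Submodule.isCompl_iff_disjoint _ _ (by
      rw [h.finrank_XX hν', h.finrank_XX h1, h.finrank_V hν]; omega)).2
      (Submodule.disjoint_def.2 fun x hx hx' => disj h hν' h1 h3 hx hx')
  obtain ⟨φ, φ1, φ2⟩ : ∃ φ : XX b2 ν →ₗ[ZMod r] V, (∀ x, φ x ∈ XX b2 ν') ∧
      ∀ x : XX b2 ν, x + φ x ∈ XX b2 (ν + ν') :=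
    ⟨-((XX b2 ν').projection _ hc ∘ₗ (XX b2 ν).subtype),
      fun x => neg_mem (Submodule.projection_apply_mem hc _), fun x => by
        simpa [sub_eq_add_neg] using Submodule.sub_projection_mem hc (x : V)⟩
  refine ⟨φ, φ1, fun x hx => Subtype.ext (disj h hν h1 h2 x.2 (by simpa [hx] using φ2 x)),
    fun x y => ?_⟩
  have h4 := h.iso h1 (φ2 x) (φ2 y)
  simp only [map_add, LinearMap.add_apply, h.iso hν x.2 y.2, h.iso hν' (φ1 x) (φ1 y),
    skew h (φ x) y] at h4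
  linear_combination (norm := module) h4

theorem two (hν : ν ≠ 0) (hν' : ν' ≠ 0) (H : XX b2 ν ≠ XX b2 ν') (alt : ∀ a, ω a a = 0)
    (j4 : ∀ a u v, ω a (b1 u v) = β (b2 a u) v - β (b2 a v) u) : ω = 0 := by
  obtain ⟨φ, φ1, φ2, φ3⟩ := exists_phi h hν hν' H
  obtain ⟨e, he, e0⟩ := exists_X h hν
  have nz : ∀ x y : XX b2 ν, b1 x (φ y) = 0 → x = 0 ∨ y = 0 := fun x y hxy => by
    exact or_iff_not_imp_left.2 fun x0 => φ2 y (disj h hν hν' H
      ((h.ker_eq hν x.2 fun k => x0 (Subtype.ext k)).le hxy) (φ1 y))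
  let o : XX b2 ν →ₗ[ZMod r] XX b2 ν →ₗ[ZMod r] A := b1.compl₁₂ (XX b2 ν).subtype φ
  obtain ⟨ε, hε⟩ : ∃ ε : XX b2 ν ≃ₗ[ZMod r] A, ∀ x, ε x = b1 x (φ ⟨e, he⟩) :=
    ⟨(o.flip ⟨e, he⟩).linearEquivOfInjective ((injective_iff_map_eq_zero _).2 fun x hx =>
      (nz x _ hx).resolve_right fun k => e0 (congrArg Subtype.val k)) (h.finrank_XX hν),
      fun _ => rfl⟩
  obtain ⟨m, hm⟩ : ∃ m : XX b2 ν →ₗ[ZMod r] XX b2 ν →ₗ[ZMod r] XX b2 ν,
      ∀ x y, ε (m x y) = b1 x (φ y) := ⟨o.compr₂ ε.symm.toLinearMap, fun x y => by simp [o]⟩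
  have s1 : ∀ x y z : XX b2 ν, b2 (b1 x (φ y)) z = b2 (b1 z (φ y)) x := fun x y z => by
    have := h.jac x (φ y) z
    rw [h.iso hν z.2 x.2, skew h (φ y) z] at this
    simp only [map_neg, map_zero, LinearMap.neg_apply, LinearMap.zero_apply] at this
    linear_combination (norm := module) this
  have s2 : ∀ x y w : XX b2 ν, b2 (b1 x (φ y)) (φ w) = b2 (b1 x (φ w)) (φ y) := fun x y w => by
    have := h.jac x (φ y) (φ w)
    rw [h.iso hν' (φ1 y) (φ1 w), skew h (φ w) x] at this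
    simp only [map_neg, map_zero, LinearMap.neg_apply, LinearMap.zero_apply] at this
    linear_combination (norm := module) this
  have k1 : ∀ a z, b2 (ε (m a z)) e = b2 (ε a) z := fun a z => by
    rw [hm, hε, φ3 a z, s1 z a ⟨e, he⟩, φ3 _ a]
  have k2 : ∀ a w, b2 (ε (m a w)) (φ ⟨e, he⟩) = b2 (ε a) (φ w) := fun a w => by
    rw [hm, hε, s2]
  have t1 : ∀ x y z, b2 (ε (m (m x y) z)) e = b2 (ε (m (m z y) x)) e := fun x y z => by
    rw [k1, k1, hm, hm, s1]
  have t2 : ∀ x y z, b2 (ε (m (m x y) z)) (φ ⟨e, he⟩) = b2 (ε (m (m z y) x)) (φ ⟨e, he⟩) :=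
    fun x y z => by rw [k2, k2, hm, hm, φ3 x y, s2, φ3 y z]
  have := semi m (fun x y => ε.injective (by rw [hm, hm, φ3])) (e := ⟨e, he⟩)
    (fun x => ε.injective (by rw [hm, hε, φ3])) (fun x y hxy => nz x y (by rw [← hm, hxy, map_zero]))
    (ν' ∘ₗ b2.flip e ∘ₗ ε.toLinearMap) (fun k => e0 (disj h hν hν' H he (mem_XX.2 fun a => by
      simpa using LinearMap.congr_fun k (ε.symm a)))) (fun x y z => congrArg ν' (t1 x y z))
    (β.compl₁₂ (b2.flip e ∘ₗ ε.toLinearMap) φ).flip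
    (β.compl₁₂ (b2.flip (φ ⟨e, he⟩) ∘ₗ ε.toLinearMap) (XX b2 ν).subtype).flip
    (ω.compl₁₂ ε.toLinearMap ε.toLinearMap) (fun w x y z => congrArg (β · (φ w)) (t1 x y z))
    (fun w x y z => congrArg (β · w) (t2 x y z)) (fun a => alt _) fun a z w => by
      change ω (ε a) (ε (m z w)) = β (b2 (ε (m a z)) e) (φ w) - β (b2 (ε (m a w)) (φ ⟨e, he⟩)) z
      rw [k1, k2, hm, j4]
  refine LinearMap.ext fun a => LinearMap.ext fun b => ?_
  simpa using LinearMap.congr_fun₂ this (ε.symm a) (ε.symm b)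

end LA4

theorem Dat.four (h : Dat b1 b2) (β : B →ₗ[ZMod r] V →ₗ[ZMod r] ZMod r)
    (ω : A →ₗ[ZMod r] A →ₗ[ZMod r] ZMod r) (alt : ∀ a, ω a a = 0)
    (j4 : ∀ a u v, ω a (b1 u v) = β (b2 a u) v - β (b2 a v) u) : β = 0 := by
  by_contra β0
  obtain ⟨v, hv⟩ : ∃ v, β.flip v ≠ 0 := by
    by_contra H
    push Not at H
    exact β0 (LinearMap.ext fun y => LinearMap.ext fun v => LinearMap.congr_fun (H v) y)
  have hω : ω = 0 := by
    by_cases H : ∀ ν' : B →ₗ[ZMod r] ZMod r, ν' ≠ 0 → XX b2 ν' = XX b2 (β.flip v)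
    · exact LA4.one h hv H j4
    · push Not at H
      obtain ⟨ν', h1, h2⟩ := H
      exact LA4.two h h1 hv h2 alt j4
  exact β0 (LA4.zero h hv fun a u v => sub_eq_zero.1 (by rw [← j4, hω]; rfl))

end CfsgLib.LMW
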