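import Mathlib
import Cfsg.Agent.Lib.LieM.Gr
import Cfsg.Agent.Lib.LMW.LA4

/-! LMW, package CAM: `r`-groups that are Camina groups modulo a term of the lower central series
(proof: plans/LMW.md, CAM). `lcs P 1 = P'`, `lcs P 2 = γ₃`, `lcs P 3 = γ₄`. -/

set_option autoImplicit false

namespace CfsgLib.LMW

open Subgroup CfsgLib.LieM
open scoped commutatorElement

/-- `P / lcs P k` is a Camina group (or abelian) -/
def Cam (P : Type*) [Group P] (k : ℕ) : Prop :=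
  ∀ x, x ∉ lcs P 1 → ∀ y ∈ lcs P 1, ∃ g, ⁅x, g⁆⁻¹ * y ∈ lcs P k

variable {P : Type*} [Group P]

theorem Cam.mono {j k : ℕ} (h : Cam P k) (hjk : j ≤ k) : Cam P j := fun x hx y hy => by
  obtain ⟨g, hg⟩ := h x hx y hy
  exact ⟨g, Subgroup.lowerCentralSeries_antitone _ hjk hg⟩

theorem cam_top (x : P) : x ∈ lcs P 0 := mem_top x

theorem cam_surj (n : ℕ) (a : Piece P n) : ∃ g ∈ lcs P n, a = cls n g := by
  obtain ⟨g, hg, e⟩ := exists_cls_eq a
  exact ⟨g, hg, e.symm⟩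

instance cam_fin [Finite P] (n : ℕ) : Finite (Piece P n) :=
  Finite.of_surjective (fun g : P => cls n g) fun a => by
    obtain ⟨g, -, e⟩ := exists_cls_eq a
    exact ⟨g, e⟩

theorem cam_step {n : ℕ} (h : lcs P n ≤ lcs P (n + 1)) : lcs P (n + 1) ≤ lcs P (n + 2) :=
  commutator_mono h le_rfl

theorem cam_gen {n : ℕ} {M : Type*} [AddCommGroup M] (ν : Piece P (n + 1) →+ M)
    (H : ∀ a ∈ lcs P n, ∀ g, ν (cls (n + 1) ⁅a, g⁆) = 0) (b : Piece P (n + 1)) : ν b = 0 := by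
  obtain ⟨y, hy, rfl⟩ := cam_surj _ b
  let K : Subgroup P :=
    { carrier := {y | y ∈ lcs P (n + 1) ∧ ν (cls (n + 1) y) = 0}
      one_mem' := ⟨one_mem _, by rw [cls_one, map_zero]⟩
      mul_mem' := fun ha hb => ⟨mul_mem ha.1 hb.1, by rw [cls_mul ha.1 hb.1, map_add, ha.2, hb.2, add_zero]⟩
      inv_mem' := fun ha => ⟨inv_mem ha.1, by rw [cls_inv ha.1, map_neg, ha.2, neg_zero]⟩ }
  have : ⁅lcs P n, (⊤ : Subgroup P)⁆ ≤ K :=
    commutator_le.2 fun a ha g _ => ⟨commutator_mem_lcs_succ ha g, H a ha g⟩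
  exact (this hy).2

/-- the bracket with the top layer -/
noncomputable def camB (n : ℕ) : Piece P n →+ Piece P 0 →+ Piece P (n + 1) := brP n 0

theorem camB_cls {n : ℕ} {x : P} (hx : x ∈ lcs P n) (y : P) :
    camB n (cls n x) (cls 0 y) = cls (n + 1) ⁅x, y⁆ := brP_cls hx (cam_top y)

/-- the bracket on the second layer -/
noncomputable def camW : Piece P 1 →+ Piece P 1 →+ Piece P 3 := brP 1 1

theorem camW_cls {x y : P} (hx : x ∈ lcs P 1) (hy : y ∈ lcs P 1) :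
    camW (cls 1 x) (cls 1 y) = cls 3 ⁅x, y⁆ := brP_cls hx hy

theorem cam_el {n : ℕ} {x : P} (hx : x ∈ lcs P n) (y : P) : ⁅el n x, el 0 y⁆ = el (n + 1) ⁅x, y⁆ :=
  lie_el hx (cam_top y)

theorem cam_jac (x y z : P) : cls 2 ⁅⁅x, y⁆, z⁆ + cls 2 ⁅⁅y, z⁆, x⁆ + cls 2 ⁅⁅z, x⁆, y⁆ = 0 := by
  have k : ∀ x y z : P, ⁅⁅el 0 x, el 0 y⁆, el 0 z⁆ = el 2 ⁅⁅x, y⁆, z⁆ := fun x y z => by
    rw [cam_el (cam_top x), cam_el (commutator_mem_lcs_succ (cam_top x) y)]
  have j := lie_jacobi (el 0 z) (el 0 x) (el 0 y)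
  rw [← lie_skew (el 0 z), ← lie_skew (el 0 x) ⁅_, _⁆, ← lie_skew (el 0 y) ⁅_, _⁆, k, k, k, ← neg_add, ← neg_add,
    neg_eq_zero] at j
  simpa only [el, map_add, toP_ofP, map_zero] using congrArg (toP 2) j

theorem cam_j4 {a : P} (ha : a ∈ lcs P 1) (u v : P) :
    cls 3 ⁅a, ⁅u, v⁆⁆ = cls 3 ⁅⁅a, u⁆, v⁆ - cls 3 ⁅⁅a, v⁆, u⁆ := by
  have k : ∀ u v : P, ⁅⁅el 1 a, el 0 u⁆, el 0 v⁆ = el 3 ⁅⁅a, u⁆, v⁆ := fun u v => by
    rw [cam_el ha, cam_el (commutator_mem_lcs_succ ha u)]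
  have k2 : ⁅el 1 a, ⁅el 0 u, el 0 v⁆⁆ = el 3 ⁅a, ⁅u, v⁆⁆ := by
    rw [cam_el (cam_top u)]
    exact lie_el ha (commutator_mem_lcs_succ (cam_top u) v)
  have j := leibniz_lie (el 1 a) (el 0 u) (el 0 v)
  rw [← lie_skew (el 0 u) ⁅_, _⁆, k, k, k2, ← sub_eq_add_neg] at j
  simpa only [el, map_sub, toP_ofP] using congrArg (toP 3) j

/-- biadditive maps of `ZMod r`-modules are bilinear -/
def camL (r : ℕ) {M N K : Type*} [AddCommGroup M] [AddCommGroup N] [AddCommGroup K] [Module (ZMod r) M]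
    [Module (ZMod r) N] [Module (ZMod r) K] (f : M →+ N →+ K) : M →ₗ[ZMod r] N →ₗ[ZMod r] K :=
  LinearMap.mk₂ (ZMod r) (fun x y => f x y) (fun _ _ _ => by simp) (fun c x y => ZMod.map_smul (f.flip y) c x)
    (fun _ _ _ => by simp) fun c x y => ZMod.map_smul (f x) c y

theorem camL_apply (r : ℕ) {M N K : Type*} [AddCommGroup M] [AddCommGroup N] [AddCommGroup K] [Module (ZMod r) M]
    [Module (ZMod r) N] [Module (ZMod r) K] (f : M →+ N →+ K) (x : M) (y : N) : camL r f x y = f x y := rfl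

theorem cam_dat [Finite P] {r : ℕ} [Fact r.Prime] [Module (ZMod r) (Piece P 0)] [Module (ZMod r) (Piece P 1)]
    [Module (ZMod r) (Piece P 2)] (h : Cam P 3) :
    Dat (V := Piece P 0) (A := Piece P 1) (B := Piece P 2) (camL r (camB 0)) (camL r (camB 1)) where
  alt x := by
    obtain ⟨x, -, rfl⟩ := cam_surj _ x
    rw [camL_apply, camB_cls (cam_top x), commutatorElement_self, cls_one]
  jac x y z := by
    obtain ⟨x, -, rfl⟩ := cam_surj _ x
    obtain ⟨y, -, rfl⟩ := cam_surj _ y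
    obtain ⟨z, -, rfl⟩ := cam_surj _ z
    have k : ∀ x y z : P, camL r (camB 1) (camL r (camB 0) (cls 0 x) (cls 0 y)) (cls 0 z) = cls 2 ⁅⁅x, y⁆, z⁆ :=
      fun x y z => by
        rw [camL_apply, camL_apply, camB_cls (cam_top x), camB_cls (commutator_mem_lcs_succ (cam_top x) y)]
    rw [k, k, k]
    exact cam_jac x y z
  onto x x0 a := by
    obtain ⟨x, -, rfl⟩ := cam_surj _ x
    obtain ⟨a, ha, rfl⟩ := cam_surj _ a
    obtain ⟨g, hg⟩ := h.mono (j := 2) (by norm_num) x (fun e => x0 ((cls_eq_zero_iff (cam_top x)).2 e)) a ha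
    exact ⟨cls 0 g, by
      rw [camL_apply, camB_cls (cam_top x)]
      exact (cls_eq_iff (commutator_mem_lcs_succ (cam_top x) g) ha).2 hg⟩
  gen ν H := LinearMap.ext fun b => cam_gen (n := 1) ν.toAddMonoidHom (fun a ha g => by
    rw [← camB_cls ha]; exact H _ _) b
  c3 x x0 := by
    obtain ⟨x, -, rfl⟩ := cam_surj _ x
    have hx : x ∉ lcs P 1 := fun e => x0 ((cls_eq_zero_iff (cam_top x)).2 e)
    have mem : ∀ g : P, cls 0 g ∈ LinearMap.ker (camL r (camB 0) (cls 0 x)) ↔ ⁅x, g⁆ ∈ lcs P 2 := fun g => by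
      rw [LinearMap.mem_ker, camL_apply, camB_cls (cam_top x),
        cls_eq_zero_iff (commutator_mem_lcs_succ (cam_top x) g)]
    let f : LinearMap.ker (camL r (camB 0) (cls 0 x)) →
        Piece P 2 ⧸ LinearMap.range ((camL r (camB 1)).flip (cls 0 x)) :=
      fun v => Submodule.Quotient.mk (cls 2 ⁅x, rep v.1⁆)
    have key : ∀ (g : P) (hg : ⁅x, g⁆ ∈ lcs P 2), f ⟨cls 0 g, (mem g).2 hg⟩ =
        Submodule.Quotient.mk (cls 2 ⁅x, g⁆) := fun g hg => by
      have hc : g⁻¹ * rep (cls 0 g) ∈ lcs P 1 := (cls_eq_iff (cam_top g) (cam_top _)).1 (cls_rep _).symm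
      refine (Submodule.Quotient.eq _).2 ?_
      show cls 2 ⁅x, rep (cls 0 g)⁆ - cls 2 ⁅x, g⁆ ∈ _
      generalize rep (cls 0 g) = g' at hc
      have h2 := commutator_mem_lcs_succ hc x
      rw [show ⁅x, g'⁆ = ⁅x, g⁆ * (g * ⁅g⁻¹ * g', x⁆⁻¹ * g⁻¹) by simp only [commutatorElement_def]; group,
        cls_mul hg (conj_mem_lcs (inv_mem h2) g), cls_conj (inv_mem h2), cls_inv h2, add_sub_cancel_left]
      exact neg_mem ⟨cls 1 (g⁻¹ * g'), camB_cls hc x⟩
    have := Fintype.ofFinite (LinearMap.ker (camL r (camB 0) (cls 0 x)))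
    have : Finite (Piece P 2 ⧸ LinearMap.range ((camL r (camB 1)).flip (cls 0 x))) :=
      Finite.of_surjective _ (Submodule.Quotient.mk_surjective _)
    have := Fintype.ofFinite (Piece P 2 ⧸ LinearMap.range ((camL r (camB 1)).flip (cls 0 x)))
    rw [Nat.card_eq_fintype_card, Nat.card_eq_fintype_card]
    refine Fintype.card_lt_of_surjective_not_injective f (fun b => ?_) fun hi => ?_
    · obtain ⟨b, rfl⟩ := Submodule.Quotient.mk_surjective _ b
      obtain ⟨z, hz, rfl⟩ := cam_surj _ b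
      obtain ⟨g, hg⟩ := h x hx z (lcs_succ_le 1 hz)
      have h2 : ⁅x, g⁆ ∈ lcs P 2 := by
        have := mul_mem hz (inv_mem (lcs_succ_le 2 hg))
        rwa [show z * (⁅x, g⁆⁻¹ * z)⁻¹ = ⁅x, g⁆ by group] at this
      exact ⟨_, (key g h2).trans (congrArg _ ((cls_eq_iff h2 hz).2 hg))⟩
    · have k1 := key x (by rw [commutatorElement_self]; exact one_mem _)
      have k2 := key 1 (by rw [commutatorElement_one_right]; exact one_mem _)
      have k3 := congrArg Subtype.val (hi (k1.trans (Eq.trans (by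
        rw [commutatorElement_self, commutatorElement_one_right]) k2.symm)))
      exact x0 (k3.trans (cls_one 0))

theorem cam_root {H : Subgroup P} {r : ℕ} : ∀ (k : ℕ) {x : P}, x ∉ H → x ^ r ^ k ∈ H → ∃ y, y ∉ H ∧ y ^ r ∈ H
  | 0, x, hx, e => absurd (by simpa using e) hx
  | k + 1, x, hx, e => by
    by_cases h : x ^ r ∈ H
    · exact ⟨x, hx, h⟩
    · exact cam_root k h (by rwa [← pow_mul, ← pow_succ'])

variable [Finite P] {r : ℕ} [Fact r.Prime] (hP : IsPGroup r P)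
include hP

/-- all lower central factors are elementary -/
theorem Cam.pow_mem (h : Cam P 2) (ne : ¬ lcs P 1 ≤ lcs P 2) {i : ℕ} {y : P} (hy : y ∈ lcs P i) :
    y ^ r ∈ lcs P (i + 1) := by
  have h1 : ∀ y ∈ lcs P 1, r • cls 1 y = 0 := fun y hy => by
    obtain ⟨x, -, hx⟩ := SetLike.not_le_iff_exists.1 fun e : lcs P 0 ≤ lcs P 1 => ne (cam_step e)
    obtain ⟨k, hk⟩ := hP x
    obtain ⟨x, hx, hr⟩ := cam_root (r := r) k hx (by rw [hk]; exact one_mem _)
    obtain ⟨g, hg⟩ := h x hx y hy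
    rw [← (cls_eq_iff (commutator_mem_lcs_succ (cam_top x) g) hy).2 hg, ← camB_cls (cam_top x),
      ← AddMonoidHom.nsmul_apply, ← map_nsmul, ← cls_pow (cam_top x), (cls_eq_zero_iff (cam_top _)).2 hr,
      map_zero, AddMonoidHom.zero_apply]
  have h0 : ∀ y : P, r • cls 0 y = 0 := fun y => by
    rw [← cls_pow (cam_top y), cls_eq_zero_iff (cam_top _)]
    by_contra hy
    obtain ⟨a, ha, ha'⟩ := SetLike.not_le_iff_exists.1 ne
    obtain ⟨g, hg⟩ := h _ hy a ha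
    refine ha' ((cls_eq_zero_iff ha).1 ?_)
    rw [← (cls_eq_iff (commutator_mem_lcs_succ (cam_top _) g) ha).2 hg, ← camB_cls (cam_top _),
      cls_pow (cam_top y), map_nsmul, AddMonoidHom.nsmul_apply, camB_cls (cam_top y)]
    exact h1 _ (commutator_mem_lcs_succ (cam_top y) g)
  rw [← cls_eq_zero_iff (Subgroup.pow_mem _ hy r), cls_pow hy]
  cases i with
  | zero => exact h0 y
  | succ i =>
    exact cam_gen (nsmulAddMonoidHom r) (fun a ha g => by
      rw [nsmulAddMonoidHom_apply, ← camB_cls ha, ← map_nsmul, h0, map_zero]) _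

theorem cam_tors (h : Cam P 3) (ne : ¬ lcs P 1 ≤ lcs P 2) (i : ℕ) (a : Piece P i) : r • a = 0 := by
  obtain ⟨y, hy, rfl⟩ := cam_surj _ a
  rw [← cls_pow hy, cls_eq_zero_iff (Subgroup.pow_mem _ hy r)]
  exact Cam.pow_mem hP (h.mono (by norm_num)) ne hy

/-- Dark-Scoppola -/
theorem Cam.four (h : Cam P 3) (ne : ¬ lcs P 2 ≤ lcs P 3) : lcs P 3 = ⊥ := by
  have t := cam_tors hP h fun e => ne (cam_step e)
  letI := fun i => AddCommGroup.zmodModule (t i)
  have k : ∀ b : Piece P 3, b = 0 := fun b => (Module.forall_dual_apply_eq_zero_iff (ZMod r) b).1 fun l => by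
    have e := (cam_dat (r := r) h).four ((camL r (camB 2)).compr₂ l) ((camL r camW).compr₂ l) (fun a => by
      obtain ⟨a, ha, rfl⟩ := cam_surj _ a
      rw [LinearMap.compr₂_apply, camL_apply, camW_cls ha ha, commutatorElement_self, cls_one, map_zero])
      fun a u v => by
        obtain ⟨a, ha, rfl⟩ := cam_surj _ a
        obtain ⟨u, -, rfl⟩ := cam_surj _ u
        obtain ⟨v, -, rfl⟩ := cam_surj _ v
        simp only [LinearMap.compr₂_apply, camL_apply]
        rw [camB_cls (cam_top u), camB_cls ha, camB_cls ha, camB_cls (commutator_mem_lcs_succ ha u),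
          camB_cls (commutator_mem_lcs_succ ha v), ← map_sub]
        exact congrArg l ((camW_cls ha (commutator_mem_lcs_succ (cam_top u) v)).trans (cam_j4 ha u v))
    exact cam_gen (n := 2) l.toAddMonoidHom (fun a ha g => by
      rw [← camB_cls ha]
      exact LinearMap.congr_fun₂ e (cls 2 a) (cls 0 g)) b
  have s : ∀ n, lcs P (n + 3) ≤ lcs P (n + 4) := fun n => by
    induction n with
    | zero => exact fun y hy => (cls_eq_zero_iff hy).1 (k _)
    | succ n ih => exact cam_step ih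
  have s2 : ∀ n, lcs P 3 ≤ lcs P (n + 3) := fun n => by
    induction n with
    | zero => exact le_rfl
    | succ n ih => exact ih.trans (s n)
  obtain ⟨n, hn⟩ := Subgroup.nilpotent_iff_lowerCentralSeries.1 hP.isNilpotent
  exact eq_bot_iff.2 ((s2 n).trans ((Subgroup.lowerCentralSeries_antitone _ (Nat.le_add_right n 3)).trans hn.le))

theorem Cam.onto2 (h : Cam P 3) {a : P} (ha : a ∈ lcs P 1) (ha' : a ∉ lcs P 2) {z : P}
    (hz : z ∈ lcs P 2) : ∃ b, ⁅a, b⁆⁻¹ * z ∈ lcs P 3 := by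
  have t := cam_tors hP h fun e => ha' (e ha)
  letI := fun i => AddCommGroup.zmodModule (t i)
  obtain ⟨b, hb⟩ := (cam_dat (r := r) h).onto2 (a := cls 1 a) (fun e => ha' ((cls_eq_zero_iff ha).1 e)) (cls 2 z)
  obtain ⟨b, -, rfl⟩ := cam_surj _ b
  rw [camL_apply, camB_cls ha] at hb
  exact ⟨b, (cls_eq_iff (commutator_mem_lcs_succ ha b) hz).1 hb⟩

theorem Cam.hat (h : Cam P 3) {U : Subgroup P} (h1 : lcs P 3 ≤ U) (h2 : U ≤ lcs P 2)
    (h3 : U.relIndex (lcs P 2) = r) : ∃ X : Subgroup P, lcs P 1 ≤ X ∧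
      (∀ x ∈ X, ∀ a ∈ lcs P 1, ⁅a, x⁆ ∈ U) ∧ (∀ x ∈ X, ∀ y ∈ X, ⁅x, y⁆ ∈ lcs P 2) ∧
      r ^ 2 ≤ (lcs P 1).relIndex X := by
  have hr : r.Prime := Fact.out
  have hU : ¬ lcs P 2 ≤ U := fun e => hr.ne_one (h3.symm.trans (relIndex_eq_one.2 e))
  have t := cam_tors hP h fun e => hU ((cam_step e).trans h1)
  letI := fun i => AddCommGroup.zmodModule (t i)
  have D := cam_dat (r := r) h
  let W : AddSubgroup (Piece P 2) :=
    { carrier := {b | ∃ u ∈ U, cls 2 u = b}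
      zero_mem' := ⟨1, one_mem _, cls_one 2⟩
      add_mem' := by
        rintro _ _ ⟨a, ha, rfl⟩ ⟨b, hb, rfl⟩
        exact ⟨a * b, mul_mem ha hb, cls_mul (h2 ha) (h2 hb)⟩
      neg_mem' := by
        rintro _ ⟨a, ha, rfl⟩
        exact ⟨a⁻¹, inv_mem ha, cls_inv (h2 ha)⟩ }
  obtain ⟨ν, ν0, hν⟩ := Submodule.exists_le_ker_of_lt_top (AddSubgroup.toZModSubmodule r W)
    (lt_top_iff_ne_top.2 fun e => hU fun z hz => by
      obtain ⟨u, hu, e'⟩ : cls 2 z ∈ W := e.ge (Submodule.mem_top (x := cls 2 z))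
      simpa using mul_mem hu (h1 ((cls_eq_iff (h2 hu) hz).1 e')))
  let K : Subgroup P :=
    { carrier := {y | y ∈ lcs P 2 ∧ ν (cls 2 y) = 0}
      one_mem' := ⟨one_mem _, by rw [cls_one, map_zero]⟩
      mul_mem' := fun ha hb => ⟨mul_mem ha.1 hb.1, by rw [cls_mul ha.1 hb.1, map_add, ha.2, hb.2, add_zero]⟩
      inv_mem' := fun ha => ⟨inv_mem ha.1, by rw [cls_inv ha.1, map_neg, ha.2, neg_zero]⟩ }
  have hK : K ≤ U := by
    have e := relIndex_mul_relIndex U K (lcs P 2) (fun u hu => ⟨h2 hu, hν ⟨u, hu, rfl⟩⟩) fun _ hy => hy.1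
    rw [h3] at e
    rcases hr.eq_one_or_self_of_dvd _ (Dvd.intro _ e) with e1 | e1
    · exact relIndex_eq_one.1 e1
    · rw [e1] at e
      have e2 := relIndex_eq_one.1 ((Nat.mul_eq_left hr.ne_zero).1 e)
      refine absurd (LinearMap.ext fun b => ?_) ν0
      obtain ⟨z, hz, rfl⟩ := cam_surj _ b
      exact (e2 hz).2
  let φ : P →* Multiplicative (Piece P 0) := MonoidHom.mk' (fun x => Multiplicative.ofAdd (cls 0 x))
    fun a b => congrArg Multiplicative.ofAdd (cls_mul (cam_top a) (cam_top b))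
  have hφ : Function.Surjective φ := fun v => by
    obtain ⟨g, -, e⟩ := exists_cls_eq v.toAdd
    exact ⟨g, congrArg Multiplicative.ofAdd e⟩
  have hk : φ.ker = lcs P 1 := Subgroup.ext fun x => cls_eq_zero_iff (cam_top x)
  refine ⟨(AddSubgroup.toSubgroup (XX (camL r (camB 1)) ν).toAddSubgroup).comap φ, fun x hx => ?_,
    fun x hx a ha => hK ⟨commutator_mem_lcs_succ ha x, ?_⟩, fun x hx y hy => ?_, ?_⟩
  · show cls 0 x ∈ XX (camL r (camB 1)) ν
    rw [(cls_eq_zero_iff (cam_top x)).2 hx]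
    exact zero_mem _
  · rw [← camB_cls ha]
    exact mem_XX.1 (show cls 0 x ∈ XX (camL r (camB 1)) ν from hx) _
  · have := D.iso ν0 (show cls 0 x ∈ XX (camL r (camB 1)) ν from hx) (show cls 0 y ∈ XX (camL r (camB 1)) ν from hy)
    rwa [camL_apply, camB_cls (cam_top x), cls_eq_zero_iff (commutator_mem_lcs_succ (cam_top x) y)] at this
  · rw [← hk, relIndex_ker, map_comap_eq_self_of_surjective hφ]
    show r ^ 2 ≤ Nat.card (XX (camL r (camB 1)) ν)
    rw [Module.natCard_eq_pow_finrank (K := ZMod r), Nat.card_zmod, D.finrank_XX ν0]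
    exact Nat.pow_le_pow_right hr.pos (D.two_le ν0)

end CfsgLib.LMW
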