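import Mathlib

/-! LMW, package FLD: the field argument (proof: plans/LMW.md, FLD). -/

set_option autoImplicit false

namespace CfsgLib.LMW

open Subgroup

section Add

variable {H A : Type*} [Group H] [Finite H] [AddCommGroup A] [Finite A] [DistribMulAction H A]
  {U : Subgroup H}

theorem fld_card_ne {α : Type*} [Finite α] (a : α) : Nat.card {x // x ≠ a} = Nat.card α - 1 := by
  classical
  rw [← Nat.card_congr (Equiv.optionSubtypeNe a), Finite.card_option, Nat.add_sub_cancel]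

omit [Finite H] [Finite A] in
theorem fld_eq (semi : ∀ u ∈ U, ∀ w : A, u • w = w → u = 1 ∨ w = 0) {u u' : H} (hu : u⁻¹ * u' ∈ U)
    {w : A} (hw : w ≠ 0) (e : u • w = u' • w) : u = u' :=
  inv_mul_eq_one.1 ((semi _ hu w (by rw [mul_smul, ← e, inv_smul_smul])).resolve_right hw)

omit [Finite H] in
/-- a proper non-trivial invariant subgroup forces `|U|² ≤ |A|` -/
theorem fld_irr (semi : ∀ u ∈ U, ∀ w : A, u • w = w → u = 1 ∨ w = 0) (B : AddSubgroup A)
    (hB : ∀ u ∈ U, ∀ b ∈ B, u • b ∈ B) {b : A} (hb : b ∈ B) (b0 : b ≠ 0) {w : A} (hw : w ∉ B) :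
    Nat.card U * Nat.card U ≤ Nat.card A := by
  have h1 : Nat.card U ≤ Nat.card B := Nat.card_le_card_of_injective
    (fun u : U => (⟨u.1 • b, hB _ u.2 _ hb⟩ : B)) fun u u' e =>
      Subtype.ext (fld_eq semi (mul_mem (inv_mem u.2) u'.2) b0 (congrArg Subtype.val e))
  have key : ∀ u ∈ U, u • w - w ∈ B → u = 1 := by
    intro u hu h
    by_contra u1
    let f : B → B := fun x => ⟨u • x.1 - x.1, sub_mem (hB _ hu _ x.2) x.2⟩
    have fi : Function.Injective f := fun x x' e => by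
      have e' : u • x.1 - x.1 = u • x'.1 - x'.1 := congrArg Subtype.val e
      refine Subtype.ext (sub_eq_zero.1 ((semi u hu _ ?_).resolve_left u1))
      rw [smul_sub]
      linear_combination (norm := abel) e'
    obtain ⟨x, hx⟩ := Finite.surjective_of_injective fi ⟨_, h⟩
    have e' : u • x.1 - x.1 = u • w - w := congrArg Subtype.val hx
    have : x.1 - w = 0 := (semi u hu _ (by
      rw [smul_sub]
      linear_combination (norm := abel) e')).resolve_left u1
    exact hw (sub_eq_zero.1 this ▸ x.2)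
  have h2 : Nat.card (U × B) ≤ Nat.card A := Nat.card_le_card_of_injective
    (fun x : U × B => x.1.1 • w + x.2.1) (by
      rintro ⟨u, x⟩ ⟨u', x'⟩ e
      have e' : u.1 • w + x.1 = u'.1 • w + x'.1 := e
      have k : u'.1⁻¹ * u.1 = 1 := key _ (mul_mem (inv_mem u'.2) u.2) (by
        have : (u'.1⁻¹ * u.1) • w - w = u'.1⁻¹ • (x'.1 - x.1) := by
          rw [mul_smul, eq_comm, inv_smul_eq_iff, smul_sub, smul_inv_smul]
          linear_combination (norm := abel) - e'
        rw [this]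
        exact hB _ (inv_mem u'.2) _ (sub_mem x'.2 x.2))
      obtain rfl : u' = u := Subtype.ext (inv_mul_eq_one.1 k)
      rw [Subtype.ext (add_left_cancel e' : x.1 = x'.1)])
  rw [Nat.card_prod] at h2
  exact (Nat.mul_le_mul_left _ h1).trans h2

open scoped IsMulCommutative in
theorem fld_add (Γ U : Subgroup H) [Γ.Normal] [hUn : U.Normal] (hU : U ≤ Γ) (U1 : U ≠ ⊥)
    (cent : ∀ g ∈ Γ, ∀ u ∈ U, g * u = u * g)
    (frob : ∀ h, h ∉ Γ → ∀ u ∈ U, h * u = u * h → u = 1)
    (semi : ∀ u ∈ U, ∀ w : A, u • w = w → u = 1 ∨ w = 0)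
    {t d : H} {s s' : ℕ} (hs : s.Prime) (hs' : s'.Prime) (ne : s ≠ s') (ht : t ∉ Γ) (hts : t ^ s ∈ Γ)
    (hd : d ∉ Γ) (hds : d ^ s' ∈ Γ) (td : t * d = d * t)
    (y1 : 1 < Nat.card {w : A // t • w = w})
    (hy : Nat.card A - 1 = Nat.card U * (Nat.card {w : A // t • w = w} - 1)) : False := by
  classical
  obtain ⟨⟨u0, hu0⟩, u01⟩ := ne_bot_iff_exists_ne_one.1 U1
  have u01' : u0 ≠ 1 := fun e => u01 (Subtype.ext e)
  have K : ∀ u ∈ U, ∀ η : A, t • η = η → η ≠ 0 → t • u • η = u • η → u = 1 := by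
    intro u hu η h1 h0 h2
    refine frob t ht u hu ?_
    have := fld_eq semi (u := u) (u' := t * u * t⁻¹) (mul_mem (inv_mem hu) (hUn.conj_mem u hu t)) h0
      (by rw [mul_smul, inv_smul_eq_iff.2 h1.symm, mul_smul, h2])
    rw [eq_mul_inv_iff_mul_eq] at this
    exact this.symm
  let z : {w : A // t • w = w} := ⟨0, smul_zero t⟩
  have : Nontrivial {w : A // t • w = w} := Finite.one_lt_card_iff_nontrivial.1 y1
  obtain ⟨⟨w0, hw0⟩, w00⟩ := exists_ne z
  have w0ne : w0 ≠ 0 := fun e => w00 (Subtype.ext e)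
  -- the partition
  have part : ∀ w : A, w ≠ 0 → ∃ u ∈ U, ∃ η : A, t • η = η ∧ w = u • η := by
    let f : U × {x : {w : A // t • w = w} // x ≠ z} → {w : A // w ≠ 0} := fun x =>
      ⟨x.1.1 • x.2.1.1, fun e => x.2.2 (Subtype.ext ((smul_eq_zero_iff_eq _).1 e))⟩
    have fi : Function.Injective f := by
      rintro ⟨u, η⟩ ⟨u', η'⟩ e
      have e' : u.1 • η.1.1 = u'.1 • η'.1.1 := congrArg Subtype.val e
      have e2 : (u'.1⁻¹ * u.1) • η.1.1 = η'.1.1 := by rw [mul_smul, e', inv_smul_smul]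
      have k := K _ (mul_mem (inv_mem u'.2) u.2) η.1.1 η.1.2 (fun e => η.2 (Subtype.ext e))
        (by rw [e2, η'.1.2])
      obtain rfl : u' = u := Subtype.ext (inv_mul_eq_one.1 k)
      rw [Subtype.ext (Subtype.ext (MulAction.injective _ e'))]
    have fb := fi.bijective_of_nat_card_le (by rw [Nat.card_prod, fld_card_ne, fld_card_ne, hy])
    intro w hw
    obtain ⟨⟨u, η⟩, e⟩ := fb.2 ⟨w, hw⟩
    exact ⟨u.1, u.2, η.1.1, η.1.2, (congrArg Subtype.val e).symm⟩
  have ysq : Nat.card {w : A // t • w = w} * Nat.card {w : A // t • w = w} ≤ Nat.card A := by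
    rw [← Nat.card_prod]
    refine Nat.card_le_card_of_injective (fun x => x.1.1 + u0 • x.2.1) ?_
    rintro ⟨a, b⟩ ⟨a', b'⟩ e
    have e' : a.1 + u0 • b.1 = a'.1 + u0 • b'.1 := e
    have e2 : u0 • (b.1 - b'.1) = a'.1 - a.1 := by
      rw [smul_sub]
      linear_combination (norm := abel) e'
    obtain rfl : b = b' := by
      by_contra hn
      exact u01' (K u0 hu0 _ (by rw [smul_sub, b.2, b'.2]) (fun e => hn (Subtype.ext (sub_eq_zero.1 e)))
        (by rw [e2, smul_sub, a.2, a'.2]))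
    rw [Subtype.ext (add_right_cancel e' : a.1 = a'.1)]
  have irr : ∀ B : AddSubgroup A, (∀ u ∈ U, ∀ b ∈ B, u • b ∈ B) → ∀ b ∈ B, b ≠ 0 → ∀ w, w ∈ B := by
    intro B hB b hb b0 w
    by_contra hw
    have h1 := fld_irr semi B hB hb b0 hw
    have h2 : 0 < Nat.card A := Nat.card_pos
    generalize Nat.card {w : A // t • w = w} = y at *
    generalize Nat.card U = n at *
    generalize Nat.card A = N at *
    obtain ⟨y, rfl⟩ : ∃ y', y = y' + 1 := ⟨y - 1, by omega⟩
    obtain ⟨N, rfl⟩ : ∃ N', N = N' + 1 := ⟨N - 1, by omega⟩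
    rw [Nat.add_sub_cancel, Nat.add_sub_cancel] at hy
    rcases le_or_gt n (y + 1) with h | h <;> nlinarith
  -- the ring
  let ρ : H →* AddMonoid.End A := DistribMulAction.toAddMonoidEnd H A
  have ρa : ∀ g (w : A), ρ g w = g • w := fun _ _ => rfl
  let R : Subring (AddMonoid.End A) := Subring.closure (ρ '' U)
  have Rc : IsMulCommutative R := Subring.isMulCommutative_closure (by
    rintro _ ⟨u, hu, rfl⟩ _ ⟨v, hv, rfl⟩
    rw [← map_mul, cent u (hU hu) v hv, map_mul])
  have Rm : ∀ u ∈ U, ρ u ∈ R := fun u hu => Subring.subset_closure ⟨u, hu, rfl⟩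
  have Rz : ∀ a ∈ R, ∀ w : A, w ≠ 0 → a w = 0 → a = 0 := by
    intro a ha w hw e
    refine AddMonoidHom.ext fun x => irr (AddMonoidHom.ker a) (fun u hu b hb => ?_) w e hw x
    show (a * ρ u) b = 0
    rw [setLike_mul_comm ha (Rm u hu)]
    show u • a b = 0
    rw [show a b = 0 from hb, smul_zero]
  have Rj : ∀ g, ∀ a ∈ R, ρ g * a * ρ g⁻¹ ∈ R := by
    intro g a ha
    have e1 : ρ g * ρ g⁻¹ = 1 := by rw [← map_mul, mul_inv_cancel, map_one]
    have e2 : ρ g⁻¹ * ρ g = 1 := by rw [← map_mul, inv_mul_cancel, map_one]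
    induction ha using Subring.closure_induction with
    | mem x hx =>
      obtain ⟨u, hu, rfl⟩ := hx
      rw [← map_mul, ← map_mul]
      exact Rm _ (hUn.conj_mem u hu g)
    | zero => rw [mul_zero, zero_mul]; exact zero_mem _
    | one => rw [mul_one, e1]; exact one_mem _
    | add x y _ _ h1 h2 => rw [mul_add, add_mul]; exact add_mem h1 h2
    | neg x _ h1 => rw [mul_neg, neg_mul]; exact neg_mem h1
    | mul x y _ _ h1 h2 =>
      have := mul_mem h1 h2
      rwa [show ρ g * x * ρ g⁻¹ * (ρ g * y * ρ g⁻¹) = ρ g * (x * (ρ g⁻¹ * ρ g) * y) * ρ g⁻¹ by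
        simp only [mul_assoc], e2, mul_one] at this
  have : Nontrivial R := ⟨1, 0, fun e => w0ne (congrArg (fun a : R => a.1 w0) e)⟩
  have : NoZeroDivisors R := ⟨fun {a b} e => by
    by_cases h : b.1 w0 = 0
    · exact .inr (Subtype.ext (Rz _ b.2 _ w0ne h))
    · exact .inl (Subtype.ext (Rz _ a.2 _ h (congrArg (fun a : R => a.1 w0) e)))⟩
  have : IsDomain R := NoZeroDivisors.to_isDomain R
  have fix : ∀ a ∈ R, (∀ w, d • a w = a (d • w)) → ρ t * a * ρ t⁻¹ = a := by
    intro a ha hda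
    by_cases a0 : a w0 = 0
    · rw [Rz a ha _ w0ne a0, mul_zero, zero_mul]
    obtain ⟨u, hu, η, hη, e⟩ := part _ a0
    have hv : t * u * t⁻¹ * u⁻¹ ∈ U := mul_mem (hUn.conj_mem u hu t) (inv_mem hu)
    have e1 : ρ t * a * ρ t⁻¹ = ρ (t * u * t⁻¹ * u⁻¹) * a := by
      refine sub_eq_zero.1 (Rz _ (sub_mem (Rj t a ha) (mul_mem (Rm _ hv) ha)) _ w0ne ?_)
      show t • a (t⁻¹ • w0) - (t * u * t⁻¹ * u⁻¹) • a w0 = 0
      rw [inv_smul_eq_iff.2 hw0.symm, e, mul_smul, inv_smul_smul, mul_smul, inv_smul_eq_iff.2 hη.symm,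
        mul_smul, sub_self]
    generalize t * u * t⁻¹ * u⁻¹ = v at hv e1
    have e2 : ∀ w, t • a (t⁻¹ • w) = v • a w := fun w => congrArg (fun a : AddMonoid.End A => a w) e1
    have td' : t⁻¹ * d = d * t⁻¹ := (Commute.inv_left td).eq
    have e3 : (v * d) • a w0 = (d * v) • a w0 := by
      rw [mul_smul, mul_smul, hda, ← e2, ← e2, smul_smul t⁻¹, td', mul_smul, ← hda, smul_smul, td,
        mul_smul]
    have e4 := fld_eq semi (by
      rw [show (v * d)⁻¹ * (d * v) = d⁻¹ * v⁻¹ * d⁻¹⁻¹ * v by group]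
      exact mul_mem (hUn.conj_mem _ (inv_mem hv) _) hv) a0 e3
    rw [e1, frob d hd v hv e4.symm, map_one, one_mul]
  -- the characters
  let χ : H → (U →* R) := fun g =>
    { toFun := fun u => ⟨ρ (g * u.1 * g⁻¹), Rm _ (hUn.conj_mem _ u.2 g)⟩
      map_one' := Subtype.ext (by
        show ρ (g * 1 * g⁻¹) = 1
        rw [mul_one, mul_inv_cancel, map_one])
      map_mul' := fun u v => Subtype.ext (by
        show ρ (g * (u.1 * v.1) * g⁻¹) = ρ (g * u.1 * g⁻¹) * ρ (g * v.1 * g⁻¹)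
        rw [← map_mul]; congr 1; group) }
  have χi : ∀ g g', χ g = χ g' → (g : H ⧸ Γ) = g' := by
    intro g g' e
    rw [QuotientGroup.eq]
    by_contra hn
    have e1 : (g * u0 * g⁻¹) • w0 = (g' * u0 * g'⁻¹) • w0 :=
      congrArg (fun f : U →* R => (f ⟨u0, hu0⟩).1 w0) e
    have e2 := fld_eq semi (mul_mem (inv_mem (hUn.conj_mem _ hu0 g)) (hUn.conj_mem _ hu0 g')) w0ne e1
    refine u01' (frob _ hn u0 hu0 ?_)
    calc g⁻¹ * g' * u0 = g⁻¹ * (g' * u0 * g'⁻¹) * g' := by group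
      _ = _ := by rw [← e2]; group
  have := Fact.mk hs
  have := Fact.mk hs'
  have ot : orderOf (t : H ⧸ Γ) = s := orderOf_eq_prime
    (by rw [← QuotientGroup.mk_pow, QuotientGroup.eq_one_iff]; exact hts)
    (by rwa [Ne, QuotientGroup.eq_one_iff])
  have od : orderOf (d : H ⧸ Γ) = s' := orderOf_eq_prime
    (by rw [← QuotientGroup.mk_pow, QuotientGroup.eq_one_iff]; exact hds)
    (by rwa [Ne, QuotientGroup.eq_one_iff])
  have nt : ∀ i j : ℕ, (t : H ⧸ Γ) * (d : H ⧸ Γ) ^ i ≠ (d : H ⧸ Γ) ^ j := fun i j e => by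
    have : (t : H ⧸ Γ) ∈ zpowers (d : H ⧸ Γ) := by
      rw [eq_mul_inv_of_mul_eq e]
      exact mul_mem (npow_mem_zpowers _ _) (inv_mem (npow_mem_zpowers _ _))
    have := orderOf_dvd_of_mem_zpowers this
    rw [ot, od] at this
    exact ne ((Nat.prime_dvd_prime_iff_eq hs hs').1 this)
  have pi : ∀ i j : Fin s', (d : H ⧸ Γ) ^ (i : ℕ) = (d : H ⧸ Γ) ^ (j : ℕ) → i = j := fun i j e =>
    Fin.ext (pow_injOn_Iio_orderOf (by rw [od]; exact i.2) (by rw [od]; exact j.2) e)
  let F : Fin s' ⊕ Fin s' → (U →* R) := Sum.elim (fun i => χ (d ^ (i : ℕ))) fun i => χ (t * d ^ (i : ℕ))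
  have Fi : Function.Injective F := by
    rintro (i | i) (j | j) e <;> have k := χi _ _ e <;>
      simp only [QuotientGroup.mk_mul, QuotientGroup.mk_pow] at k
    · rw [pi i j k]
    · exact absurd k.symm (nt _ _)
    · exact absurd k (nt _ _)
    · rw [pi i j (mul_left_cancel k)]
  have li := Fintype.linearIndependent_iff.1 ((linearIndependent_monoidHom U R).comp F Fi)
    (Sum.elim (fun _ => 1) fun _ => -1) (by
      funext u
      have k := fix (∑ i ∈ Finset.range s', ρ (d ^ i * u * (d ^ i)⁻¹))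
        (sum_mem fun i _ => Rm _ (hUn.conj_mem _ u.2 _)) (fun w => by
          have e1 := Finset.sum_range_succ (fun i => (d ^ i * u * (d ^ i)⁻¹) • d • w) s'
          rw [Finset.sum_range_succ', cent _ hds _ u.2, mul_inv_cancel_right, pow_zero, one_mul,
            inv_one, mul_one, add_left_inj] at e1
          have sa : ∀ w : A, (∑ i ∈ Finset.range s', ρ (d ^ i * u * (d ^ i)⁻¹)) w =
              ∑ i ∈ Finset.range s', (d ^ i * u * (d ^ i)⁻¹) • w := fun w =>
            AddMonoidHom.finsetSum_apply _ _ w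
          rw [sa, sa, Finset.smul_sum, ← e1]
          refine Finset.sum_congr rfl fun i _ => ?_
          rw [smul_smul, smul_smul]
          congr 1
          group)
      rw [Finset.mul_sum, Finset.sum_mul] at k
      simp only [← map_mul] at k
      refine Subtype.ext ?_
      rw [Finset.sum_apply, Fintype.sum_sum_type]
      simp only [Sum.elim_inl, Sum.elim_inr, one_smul, neg_smul, Pi.neg_apply, Function.comp_apply,
        Finset.sum_neg_distrib, F, Pi.zero_apply, Subring.coe_add, Subring.coe_neg,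
        AddSubmonoidClass.coe_finsetSum, ZeroMemClass.coe_zero]
      rw [add_neg_eq_zero]
      rw [Finset.sum_range, Finset.sum_range] at k
      refine k.symm.trans (Finset.sum_congr rfl fun i _ => ?_)
      show _ = ρ (t * d ^ (i : ℕ) * u * (t * d ^ (i : ℕ))⁻¹)
      congr 1
      group) (.inl ⟨0, hs'.pos⟩)
  exact one_ne_zero li

end Add

theorem fld {H W : Type*} [Group H] [Finite H] [CommGroup W] [Finite W] [MulDistribMulAction H W]
    (Γ U : Subgroup H) [Γ.Normal] [U.Normal] (hU : U ≤ Γ) (U1 : U ≠ ⊥)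
    (cent : ∀ g ∈ Γ, ∀ u ∈ U, g * u = u * g)
    (frob : ∀ h, h ∉ Γ → ∀ u ∈ U, h * u = u * h → u = 1)
    (semi : ∀ u ∈ U, ∀ w : W, u • w = w → u = 1 ∨ w = 1)
    {t d : H} {s s' : ℕ} (hs : s.Prime) (hs' : s'.Prime) (ne : s ≠ s') (ht : t ∉ Γ) (hts : t ^ s ∈ Γ)
    (hd : d ∉ Γ) (hds : d ^ s' ∈ Γ) (td : t * d = d * t)
    (y1 : 1 < Nat.card {w : W // t • w = w})
    (hy : Nat.card W - 1 = Nat.card U * (Nat.card {w : W // t • w = w} - 1)) : False := by
  letI : DistribMulAction H (Additive W) :=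
    { smul := fun h a => Additive.ofMul (h • a.toMul)
      one_smul := fun a => one_smul H a.toMul
      mul_smul := fun g h a => mul_smul g h a.toMul
      smul_zero := fun h => smul_one (N := W) h
      smul_add := fun h a b => smul_mul' h a.toMul b.toMul }
  exact fld_add (A := Additive W) Γ U hU U1 cent frob semi hs hs' ne ht hts hd hds td y1 hy

end CfsgLib.LMW
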