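import Mathlib
import Cfsg.Agent.Lib.LMW.Cam
import Cfsg.Agent.Lib.Frob.Complement
import Cfsg.Agent.Lib.Core.Commutator

/-! LMW, package FPF: Camina `r`-groups all of whose elements outside the derived group act without
fixed points (Kuisch, Isaacs-Lewis; proof: plans/LMW.md, FPF). -/

set_option autoImplicit false

namespace CfsgLib.LMW

open Subgroup CfsgLib.LieM
open scoped commutatorElement

universe u v

section
variable {P V : Type*} [Group P] [CommGroup V] [MulDistribMulAction P V] {r : ℕ}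

theorem fpf_norm {g : P} (hg : ∀ v : V, g • v = v → v = 1) {w : V} (hw : g ^ r • w = w) :
    ∏ i ∈ Finset.range r, g ^ i • w = 1 := by
  apply hg
  rw [Finset.smul_prod']
  simp only [← mul_smul, ← pow_succ']
  have h2 := Finset.prod_range_succ' (fun j => g ^ j • w) r
  rw [Finset.prod_range_succ, hw, pow_zero, one_smul] at h2
  exact (mul_right_cancel h2).symm

theorem fpf_key [Finite P] (hr : r.Prime) (hV : ¬ r ∣ Nat.card V) {x z : P} (hc : Commute z x) (hz : z ^ r = 1)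
    (h1 : ∀ v : V, z • v = v → v = 1) (h2 : ∀ j : ℕ, ∀ v : V, (z ^ j * x) • v = v → v = 1) {w : V}
    (hw : x ^ r • w = w) : w = 1 := by
  by_contra w1
  have := Fact.mk hr
  have ho : orderOf z = r := orderOf_eq_prime hz fun e => w1 (h1 w (by rw [e, one_smul]))
  have h3 : ∀ j ∈ Finset.range r, ∏ i ∈ Finset.range r, (z ^ j * x) ^ i • w = 1 := fun j _ =>
    fpf_norm (h2 j) (by rw [(hc.pow_left j).mul_pow, ← pow_mul, mul_comm j, pow_mul, hz, one_pow, one_mul, hw])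
  have h4 := Finset.prod_eq_one h3
  rw [Finset.prod_comm, Finset.prod_eq_single 0 (fun i hi i0 => ?_) (by simp [hr.pos])] at h4
  · simp only [pow_zero, one_smul, Finset.prod_const, Finset.card_range] at h4
    exact hV (orderOf_eq_prime h4 w1 ▸ orderOf_dvd_natCard w)
  · have h5 : z ∈ zpowers (z ^ i) := mem_zpowers_pow_iff.2 (by
      rw [ho]
      exact (hr.coprime_iff_not_dvd.2 (Nat.not_dvd_of_pos_of_lt (Nat.pos_of_ne_zero i0)
        (Finset.mem_range.1 hi))).symm)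
    rw [← fpf_norm (r := r) (g := z ^ i) (w := x ^ i • w)
      (fun v hv => h1 v ((zpowers_le (H := MulAction.stabilizer P v)).2 hv h5))
      (by rw [← pow_mul, mul_comm i, pow_mul, hz, one_pow, one_smul])]
    refine Finset.prod_congr rfl fun j _ => ?_
    rw [(hc.pow_left j).mul_pow, mul_smul, ← pow_mul, ← pow_mul, mul_comm]

theorem fpf_pig [Finite P] {X A Z : Subgroup P} (hA : Nat.card Z < A.relIndex X) (f : P → P)
    (h1 : ∀ x ∈ X, f x ∈ Z) (h2 : ∀ x ∈ X, ∀ y ∈ X, f (x * y) = f x * f y) (_h3 : ∀ a ∈ A, f a = 1) :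
    ∃ x ∈ X, x ∉ A ∧ f x = 1 := by
  by_contra h
  let φ : X →* Z := MonoidHom.mk' (fun x => ⟨f x, h1 x x.2⟩) fun x y => Subtype.ext (h2 x x.2 y y.2)
  have h4 : φ.ker ≤ A.subgroupOf X := fun x hx => by_contra fun h' => h ⟨x, x.2, h', congrArg Subtype.val hx⟩
  have h5 := index_antitone h4
  rw [index_ker] at h5
  exact absurd (h5.trans (card_le_card_group _)) (not_le.2 hA)

theorem fpf_pow [Finite P] {X A Z : Subgroup P} (hA : Nat.card Z < A.relIndex X) {n : ℕ} (hn : r ∣ n.choose 2)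
    (hZ : Z ≤ center P) (hr : ∀ z ∈ Z, z ^ r = 1) (hc : ∀ x ∈ X, ∀ y ∈ X, ⁅x, y⁆ ∈ Z)
    (h1 : ∀ x ∈ X, x ^ n ∈ Z) (h3 : ∀ a ∈ A, a ^ n = 1) : ∃ x ∈ X, x ∉ A ∧ x ^ n = 1 := by
  refine fpf_pig hA (· ^ n) h1 (fun x hx y hy => ?_) h3
  obtain ⟨m, hm⟩ := hn
  have h4 := mem_center_iff.1 (hZ (hc y hy x hx))
  rw [Core.mul_pow_of_commute_commutatorElement (h4 x) (h4 y), hm, pow_mul, hr _ (hc y hy x hx), one_pow, one_mul]

theorem fpf_not_le (h3 : lcs P 3 = ⊥) (ne : lcs P 1 ≠ ⊥) : ¬ lcs P 1 ≤ lcs P 2 := fun h =>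
  ne (le_bot_iff.1 (h.trans (h3 ▸ commutator_mono h le_rfl)))

theorem fpf_red [Finite P] [hr : Fact r.Prime] (hP : IsPGroup r P) [Nontrivial V] (hV : ¬ r ∣ Nat.card V)
    (h3 : lcs P 3 = ⊥) (hc : Cam P 3) (he : ∀ x : P, x ^ r ∈ lcs P 1) (hi : r < (lcs P 1).index)
    (hf : ∀ x, x ∉ lcs P 1 → ∀ v : V, x • v = v → v = 1)
    (hM : ∀ z ∈ lcs P 1, z ≠ 1 → z ∈ center P → ∀ v : V, z • v = v → v = 1) : (lcs P 1).index = 4 := by
  obtain ⟨w, w1⟩ := exists_ne (1 : V)
  have key := fun x z => fpf_key (P := P) (V := V) hr.out hV (x := x) (z := z)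
  by_cases ne : lcs P 1 = ⊥
  · exfalso
    simp only [ne, mem_bot, index_bot] at he hi hf
    obtain ⟨z, z1⟩ : ∃ z : P, z ≠ 1 := by
      have := Finite.one_lt_card_iff_nontrivial.1 (hr.out.one_lt.trans hi)
      exact exists_ne 1
    obtain ⟨x, hx⟩ : ∃ x, x ∉ zpowers z := by
      by_contra h
      have : zpowers z = ⊤ := eq_top_iff.2 fun x _ => by_contra fun h' => h ⟨x, h'⟩
      rw [← card_top, ← this, Nat.card_zpowers, orderOf_eq_prime (he z) z1] at hi
      exact lt_irrefl _ hi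
    refine w1 (key x z ?_ (he z) (hf z z1) (fun j => hf _ fun e => hx ?_) (by rw [he, one_smul]))
    · exact commutatorElement_eq_one_iff_commute.1 (mem_bot.1 (ne ▸ commutator_mem_lcs_succ (mem_top z) x))
    · rw [eq_inv_of_mul_eq_one_right e]
      exact inv_mem (npow_mem_zpowers z j)
  have nle := fpf_not_le h3 ne
  have pm := fun i y => Cam.pow_mem hP (hc.mono (by norm_num)) nle (i := i) (y := y)
  have cyc : ∀ Z : Subgroup P, Z ≤ lcs P 1 → Z ≤ center P → (∀ z ∈ Z, z ^ r = 1) → Z ≠ ⊥ →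
      Nat.card Z = r ∧ ∃ z ∈ Z, z ≠ 1 := fun Z h1 h2 h4 h5 => by
    obtain ⟨z, hz, z1⟩ := Z.bot_or_exists_ne_one.resolve_left h5
    refine ⟨?_, z, hz, z1⟩
    rw [← orderOf_eq_prime (h4 z hz) z1, ← Nat.card_zpowers, le_antisymm (zpowers_le.2 hz) fun x hx => ?_]
    by_contra h
    have h6 := fun j : ℕ => mul_mem (pow_mem hz j) hx
    refine w1 (key x z (mem_center_iff.1 (h2 hx) z) (h4 z hz) (hM z (h1 hz) z1 (h2 hz))
      (fun j => hM _ (h1 (h6 j)) (fun e => h ?_) (h2 (h6 j))) (by rw [h4 x hx, one_smul]))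
    rw [eq_inv_of_mul_eq_one_right e]
    exact inv_mem (npow_mem_zpowers z j)
  have good : ∀ z ∈ lcs P 1, z ≠ 1 → z ∈ center P → z ^ r = 1 → ∀ x, x ∉ lcs P 1 → ∀ v : V, x ^ r • v = v →
      v = 1 := fun z hz z1 zc zr x hx v =>
    key x z (mem_center_iff.1 zc x).symm zr (hM z hz z1 zc)
      fun j => hf _ fun h => hx ((mul_mem_cancel_left (pow_mem hz j)).1 h)
  have cen : ∀ i, lcs P (i + 1) = ⊥ → lcs P i ≤ center P := fun i h z hz => mem_center_iff.2 fun g =>
    (commutatorElement_eq_one_iff_commute.1 (mem_bot.1 (h ▸ commutator_mem_lcs_succ hz g))).eq.symm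
  have com : ∀ x y : P, ⁅x, y⁆ ∈ lcs P 1 := fun x y => commutator_mem_lcs_succ (mem_top x) y
  by_cases h2 : lcs P 2 = ⊥
  · have c1 := cen 1 h2
    have e1 : ∀ z ∈ lcs P 1, z ^ r = 1 := fun z hz => mem_bot.1 (h2 ▸ pm 1 z hz)
    obtain ⟨hZ, z, hz, z1⟩ := cyc _ le_rfl c1 e1 ne
    have g1 : ∀ x, x ∉ lcs P 1 → x ^ r ≠ 1 := fun x hx e =>
      w1 (good z hz z1 (c1 hz) (e1 z hz) x hx w (by rw [e, one_smul]))
    rcases hr.out.eq_two_or_odd' with rfl | ho
    swap
    · obtain ⟨x, -, hx, e⟩ := fpf_pow (X := ⊤) (A := lcs P 1) (Z := lcs P 1) (by rwa [hZ, relIndex_top_right])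
        (hr.out.dvd_choose_self two_ne_zero (lt_of_le_of_ne hr.out.two_le fun e => by
          rw [← e] at ho; exact absurd ho (by decide))) c1 e1 (fun x _ y _ => com x y) (fun x _ => he x) e1
      exact absurd e (g1 x hx)
    obtain ⟨x, hx⟩ : ∃ x, x ∉ lcs P 1 := by
      by_contra h
      have : lcs P 1 = ⊤ := eq_top_iff.2 fun x _ => by_contra fun h' => h ⟨x, h'⟩
      rw [this, index_top] at hi
      omega
    have sq : ∀ y, y ∉ lcs P 1 → y ^ 2 = z := fun y hy => by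
      obtain ⟨b, -, hb⟩ := (Nat.card_eq_two_iff' (1 : lcs P 1)).1 hZ
      exact congrArg Subtype.val ((hb ⟨_, he y⟩ fun e => g1 y hy (congrArg Subtype.val e)).trans
        (hb ⟨z, hz⟩ fun e => z1 (congrArg Subtype.val e)).symm)
    have h4 : (centralizer {x}).index ≤ 2 := by
      by_contra h
      obtain ⟨g, -, hg, e⟩ := fpf_pig (X := ⊤) (A := centralizer {x}) (Z := lcs P 1)
        (by rw [hZ, relIndex_top_right]; omega) (fun g => ⁅g, x⁆) (fun g _ => com g x)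
        (fun a _ b _ => by
          calc ⁅a * b, x⁆ = a * ⁅b, x⁆ * a⁻¹ * ⁅a, x⁆ := by group
            _ = _ := by rw [mem_center_iff.1 (c1 (com b x)) a, mul_inv_cancel_right,
              mem_center_iff.1 (c1 (com b x))])
        (fun a ha => commutatorElement_eq_one_iff_mul_comm.2 (mem_centralizer_singleton_iff.1 ha))
      exact hg (mem_centralizer_singleton_iff.2 (commutatorElement_eq_one_iff_mul_comm.1 e))
    have h5 : (lcs P 1).relIndex (centralizer {x}) = 2 := by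
      refine relIndex_eq_two_iff.2 ⟨x, mem_centralizer_singleton_iff.2 rfl, fun y hy => ?_⟩
      by_cases h : y ∈ lcs P 1
      · exact Or.inr ⟨h, fun h' => hx ((mul_mem_cancel_left h).1 h')⟩
      refine Or.inl ⟨by_contra fun h' => z1 ?_, h⟩
      have h6 := sq _ h'
      rwa [Commute.mul_pow (mem_centralizer_singleton_iff.1 hy), sq y h, sq x hx, mul_eq_left] at h6
    have h6 := relIndex_mul_index (c1.trans (center_le_centralizer {x}))
    rw [h5] at h6
    rw [← h6] at hi ⊢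
    omega
  exfalso
  have c2 := cen 2 h3
  have e2 : ∀ z ∈ lcs P 2, z ^ r = 1 := fun z hz => mem_bot.1 (h3 ▸ pm 2 z hz)
  obtain ⟨hZ, z, hz, z1⟩ := cyc _ (lcs_succ_le 1) c2 e2 h2
  have g1 := good z (lcs_succ_le 1 hz) z1 (c2 hz) (e2 z hz)
  have g2 : ∀ x, x ∉ lcs P 1 → x ^ r ∉ lcs P 2 → (x ^ r) ^ r ≠ 1 := fun x hx h e => by
    refine w1 (key (x ^ r) z (mem_center_iff.1 (c2 hz) _).symm (e2 z hz) (hM z (lcs_succ_le 1 hz) z1 (c2 hz))
      (fun j v hv => ?_) (by rw [e, one_smul]))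
    obtain ⟨b, hb⟩ := Cam.onto2 hP hc (he x) h (inv_mem (pow_mem hz j))
    rw [h3, mem_bot, inv_mul_eq_one] at hb
    have h4 : z ^ j * x ^ r = b * x ^ r * b⁻¹ := by
      rw [← inv_inv (z ^ j), ← hb]
      group
    rw [h4, mul_smul, mul_smul, smul_eq_iff_eq_inv_smul] at hv
    simpa using congrArg (b • ·) (g1 x hx _ hv)
  obtain ⟨X, x1, x2, x3, x4⟩ := Cam.hat hP hc h3.le bot_le (by rw [relIndex_bot_left, hZ])
  have x5 : Nat.card (lcs P 2) < (lcs P 1).relIndex X := by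
    rw [hZ]
    exact (by simpa using Nat.pow_lt_pow_right hr.out.one_lt one_lt_two : r < r ^ 2).trans_le x4
  obtain ⟨x, hx, hx1, e⟩ := fpf_pow x5 (n := r ^ 2) (hr.out.dvd_choose_pow two_ne_zero (by
      have := hr.out.two_le
      nlinarith)) c2 e2 x3 (fun x _ => by rw [sq, pow_mul]; exact pm 1 _ (he x))
    (fun a ha => by rw [sq, pow_mul]; exact e2 _ (pm 1 a ha))
  have h4 : x ^ r ∈ lcs P 2 := by_contra fun h => g2 x hx1 h (by rwa [← pow_mul, ← sq])
  have e1 : ∀ a ∈ lcs P 1, a ^ r = 1 := fun a ha => by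
    obtain ⟨g, hg⟩ := hc x hx1 a ha
    rw [h3, mem_bot, inv_mul_eq_one] at hg
    rw [← hg, ← Core.commutatorElement_pow_left_of_commute
      (commutatorElement_eq_one_iff_commute.1 (mem_bot.1 (x2 x hx _ (com x g)))).symm,
      commutatorElement_eq_one_iff_mul_comm, mem_center_iff.1 (c2 h4) g]
  have h5 : ∀ p : P, p ^ r ∈ lcs P 2 := fun p => by_contra fun h =>
    g2 p (fun h' => h (pm 1 p h')) h (e1 _ (he p))
  rcases hr.out.eq_two_or_odd' with rfl | ho
  · refine nle (commutator_le.2 fun a _ b _ => ?_)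
    rw [show ⁅a, b⁆ = a ^ 2 * (a⁻¹ * b) ^ 2 * b⁻¹ ^ 2 by simp only [sq, commutatorElement_def]; group]
    exact mul_mem (mul_mem (h5 _) (h5 _)) (h5 _)
  · obtain ⟨x, -, hx, e⟩ := fpf_pow x5 (hr.out.dvd_choose_self two_ne_zero (lt_of_le_of_ne hr.out.two_le fun e => by
      rw [← e] at ho; exact absurd ho (by decide))) c2 e2 x3 (fun x _ => h5 x) e1
    exact w1 (g1 x hx w (by rw [e, one_smul]))

end

theorem fpf_ind {r : ℕ} [Fact r.Prime] (n : ℕ) : ∀ (P : Type u) (V : Type v) [Group P] [Finite P] [CommGroup V]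
    [Finite V] [Nontrivial V] [MulDistribMulAction P V], Nat.card P < n → IsPGroup r P → ¬ r ∣ Nat.card V →
    lcs P 3 = ⊥ → Cam P 3 → (∀ x : P, x ^ r ∈ lcs P 1) → r < (lcs P 1).index →
    (∀ x, x ∉ lcs P 1 → ∀ v : V, x • v = v → v = 1) → (lcs P 1).index = 4 := by
  induction n with
  | zero => intro P V _ _ _ _ _ _ h; omega
  | succ n ih =>
    intro P V _ _ _ _ _ _ hn hP hV h3 hc he hi hf
    by_cases hM : ∀ z ∈ lcs P 1, z ≠ 1 → z ∈ center P → ∀ v : V, z • v = v → v = 1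
    · exact fpf_red hP hV h3 hc he hi hf hM
    obtain ⟨z, hz, z1, zc, v, hv, v1⟩ : ∃ z ∈ lcs P 1, z ≠ 1 ∧ z ∈ center P ∧ ∃ v : V, z • v = v ∧ v ≠ 1 := by
      simpa only [not_forall, exists_prop] using hM
    have : (zpowers z).Normal := ⟨fun a ha g => by
      rwa [mem_center_iff.1 (zpowers_le.2 zc ha) g, mul_inv_cancel_right]⟩
    have : Nontrivial (FixedPoints.subgroup (zpowers z) V) :=
      ⟨⟨⟨v, fun m => (zpowers_le (H := MulAction.stabilizer P v)).2 hv m.2⟩, 1,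
        fun e => v1 (congrArg Subtype.val e)⟩⟩
    have hs := QuotientGroup.mk'_surjective (zpowers z)
    have hl : ∀ i, lcs (P ⧸ zpowers z) i = (lcs P i).map (QuotientGroup.mk' (zpowers z)) := fun i => by
      rw [map_lowerCentralSeries, map_top_of_surjective _ hs]
    have hx : (lcs (P ⧸ zpowers z) 1).index = (lcs P 1).index := by
      rw [hl, index_map_eq _ hs (by rw [QuotientGroup.ker_mk']; exact zpowers_le.2 hz)]
    rw [← hx] at hi ⊢
    refine ih (P ⧸ zpowers z) (FixedPoints.subgroup (zpowers z) V) ?_ (hP.to_quotient _)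
      (fun h => hV (h.trans (card_subgroup_dvd_card _))) (by rw [hl, h3, Subgroup.map_bot]) (fun x hx y hy => ?_)
      (fun x => ?_) hi fun x hx w hw => ?_
    · have h1 := card_eq_card_quotient_mul_card_subgroup (zpowers z)
      have h2 := one_lt_card_iff_ne_bot _ |>.2 (zpowers_ne_bot.2 z1)
      have h4 : 0 < Nat.card (P ⧸ zpowers z) := Nat.card_pos
      nlinarith
    · obtain ⟨x, rfl⟩ := hs x
      obtain ⟨y, hy', rfl⟩ := (hl 1).le hy
      obtain ⟨g, hg⟩ := hc x (fun h => hx (map_mem_lcs _ h)) y hy'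
      have h1 := map_mem_lcs (QuotientGroup.mk' (zpowers z)) hg
      rw [map_mul, map_inv, map_commutatorElement] at h1
      exact ⟨_, h1⟩
    · obtain ⟨x, rfl⟩ := hs x
      exact map_pow (QuotientGroup.mk' (zpowers z)) x r ▸ map_mem_lcs _ (he x)
    · obtain ⟨x, rfl⟩ := hs x
      exact Subtype.ext (hf x (fun h => hx (map_mem_lcs _ h)) w (congrArg Subtype.val hw))

theorem fpf {P V : Type*} [Group P] [Finite P] {r : ℕ} [Fact r.Prime] (hP : IsPGroup r P)
    [CommGroup V] [Finite V] [Nontrivial V] [MulDistribMulAction P V] (hV : ¬ r ∣ Nat.card V)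
    (h3 : lcs P 3 = ⊥) (hc : Cam P 3) (ne : lcs P 1 ≠ ⊥)
    (hf : ∀ x, x ∉ lcs P 1 → ∀ v : V, x • v = v → v = 1) : (lcs P 1).index = 4 := by
  have nle := fpf_not_le h3 ne
  have hc2 : Cam P 2 := hc.mono (by norm_num)
  refine fpf_ind _ P V (Nat.lt_succ_self _) hP hV h3 hc (fun x => Cam.pow_mem hP hc2 nle (mem_top x)) ?_ hf
  obtain ⟨y, hy, hy'⟩ := SetLike.not_le_iff_exists.1 nle
  obtain ⟨x, hx⟩ : ∃ x, x ∉ lcs P 1 := by
    by_contra h
    exact nle (commutator_mono (fun x _ => by_contra fun h' => h ⟨x, h'⟩) le_rfl)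
  obtain ⟨g, hg⟩ := hc2 x hx y hy
  have hm : ∀ a, a ∈ (centralizer {(x : P ⧸ lcs P 2)}).comap (QuotientGroup.mk' (lcs P 2)) ↔ ⁅a, x⁆ ∈ lcs P 2 :=
    fun a => by
      rw [mem_comap, mem_centralizer_singleton_iff, ← commutatorElement_eq_one_iff_mul_comm,
        ← QuotientGroup.eq_one_iff]
      rfl
  generalize (centralizer {(x : P ⧸ lcs P 2)}).comap (QuotientGroup.mk' (lcs P 2)) = C at hm
  have hle : lcs P 1 ≤ C := fun a ha => (hm a).2 (commutator_mem_lcs_succ ha x)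
  have h1 : C.index ≠ 1 := fun e => hy' (by
    rw [commutatorElement_inv] at hg
    exact (mul_mem_cancel_left ((hm g).1 (index_eq_one.1 e ▸ mem_top g))).1 hg)
  have h2 : (lcs P 1).relIndex C ≠ 1 := fun e => hx (relIndex_eq_one.1 e ((hm x).2 (by simp)))
  obtain ⟨a, ha⟩ := hP.index C
  obtain ⟨b, hb⟩ := (hP.to_subgroup C).index ((lcs P 1).subgroupOf C)
  rw [← relIndex_mul_index hle, relIndex, ha, hb, ← pow_add]
  rw [relIndex, hb] at h2
  rw [ha] at h1
  have a0 : a ≠ 0 := fun e => h1 (by rw [e, pow_zero])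
  have b0 : b ≠ 0 := fun e => h2 (by rw [e, pow_zero])
  simpa using Nat.pow_lt_pow_right (Fact.out : r.Prime).one_lt (by omega : 1 < b + a)

end CfsgLib.LMW
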